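import Cfsg.Agent.H124.SP.Grp
import Cfsg.Agent.H781.Realized

/-!
# S5175, SP: the automizer of `V` in `G` (helper124)
-/

set_option autoImplicit false
set_option linter.unusedSectionVars false

namespace Cfsg.Agent.H124.SP

open Matrix Cfsg Cfsg.FusionSystem Cfsg.Agent.ClassicalGeometry.Sp4Graph Cfsg.Agent.H802

section

variable {K : Type*} [Field K] [CharP K 2]

theorem up_injective : Function.Injective (up : K × K × K → X K) := by
  rintro ⟨u, v, w⟩ ⟨u', v', w'⟩ h
  have h1 : ∀ i j, (fromBlocks 1 (sym (u, v, w)) 0 1 : Matrix I4 I4 K) i j = (fromBlocks 1 (sym (u', v', w')) 0 1 : Matrix I4 I4 K) i j :=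
    fun i j => congrFun (congrFun (congrArg Subtype.val h) i) j
  have a1 := h1 (Sum.inl 0) (Sum.inr 0)
  have a2 := h1 (Sum.inl 0) (Sum.inr 1)
  have a3 := h1 (Sum.inl 1) (Sum.inr 1)
  simp [sym] at a1 a2 a3
  rw [a1, a2, a3]

/-- blocks -/
theorem exists_blocks (A : X K) : ∃ a b c d : Matrix (Fin 2) (Fin 2) K, (A : Matrix I4 I4 K) = fromBlocks a b c d :=
  ⟨_, _, _, _, (fromBlocks_toBlocks (A : Matrix I4 I4 K)).symm⟩

theorem blocks_eq {a b c d a' b' c' d' : Matrix (Fin 2) (Fin 2) K} (h : fromBlocks a b c d = fromBlocks a' b' c' d') :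
    a = a' ∧ b = b' ∧ c = c' ∧ d = d' := Matrix.fromBlocks_inj.1 h

/-- an element of the stabilizer of the isotropic plane -/
theorem exists_lev_of_blocks (A : X K) {a b d : Matrix (Fin 2) (Fin 2) K} (h : (A : Matrix I4 I4 K) = fromBlocks a b 0 d) :
    ∃ (P : GL (Fin 2) K) (m : K × K × K), A = lev P * up m := by
  have h2 : (2 : K) = 0 := CharTwo.two_eq_zero
  have hA := A.2
  rw [h, SymplecticGroup.mem_iff] at hA
  simp only [J, fromBlocks_transpose, fromBlocks_multiply] at hA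
  obtain ⟨h3, h4, h5, h6⟩ := blocks_eq hA
  simp only [mul_zero, mul_one, zero_add, add_zero, mul_neg, neg_mul, Matrix.transpose_zero, zero_mul, neg_zero] at h3 h4 h5 h6
  -- `a * dᵀ = 1`
  have h7 : a * dᵀ = 1 := neg_injective (by rw [← h4])
  have h7' : dᵀ * a = 1 := mul_eq_one_comm.1 h7
  let P : GL (Fin 2) K := ⟨a, dᵀ, h7, h7'⟩
  have h8 : b * aᵀ = a * bᵀ := by
    have : b * aᵀ - a * bᵀ = 0 := by rw [← h3]; abel
    exact sub_eq_zero.1 this
  -- `N = dᵀ b` is symmetric
  have h9 : (dᵀ * b)ᵀ = dᵀ * b := by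
    have e1 : d * aᵀ = 1 := by
      have := congrArg Matrix.transpose h7
      simpa [Matrix.transpose_mul] using this
    have e2 : aᵀ * d = 1 := mul_eq_one_comm.1 e1
    calc (dᵀ * b)ᵀ = bᵀ * d := by rw [Matrix.transpose_mul, Matrix.transpose_transpose]
      _ = (dᵀ * a) * bᵀ * d := by rw [h7', one_mul]
      _ = dᵀ * (a * bᵀ) * d := by simp only [mul_assoc]
      _ = dᵀ * (b * aᵀ) * d := by rw [h8]
      _ = dᵀ * b * (aᵀ * d) := by simp only [mul_assoc]
      _ = dᵀ * b := by rw [e2, mul_one]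
  set N := dᵀ * b with hN
  refine ⟨P, (N 1 1, N 0 1, N 0 0), ?_⟩
  have h10 : sym (N 1 1, N 0 1, N 0 0) = N := by
    ext i j
    fin_cases i <;> fin_cases j
    · rfl
    · rfl
    · exact congrFun (congrFun h9 1) 0
    · rfl
  apply Subtype.ext
  rw [h]
  show fromBlocks a b 0 d = fromBlocks a 0 0 (dᵀ)ᵀ * fromBlocks 1 (sym (N 1 1, N 0 1, N 0 0)) 0 1
  rw [h10, fromBlocks_multiply, Matrix.transpose_transpose]
  have h11 : a * N = b := by rw [hN, ← mul_assoc, h7, one_mul]
  simp [h11]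

/-- elements normalizing `V` -/
theorem exists_lev {A : X K} (h : ∀ n : K × K × K, ∃ m, A * up n = up m * A) :
    ∃ (P : GL (Fin 2) K) (m : K × K × K), A = lev P * up m := by
  obtain ⟨a, b, c, d, hA⟩ := exists_blocks A
  have key : ∀ n : K × K × K, c * sym n = 0 := by
    intro n
    obtain ⟨m, hm⟩ := h n
    have h1 : (A : Matrix I4 I4 K) * fromBlocks 1 (sym n) 0 1 = fromBlocks 1 (sym m) 0 1 * (A : Matrix I4 I4 K) := congrArg Subtype.val hm
    rw [hA, fromBlocks_multiply, fromBlocks_multiply] at h1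
    obtain ⟨-, -, -, h5⟩ := blocks_eq h1
    simp only [mul_one, zero_add, zero_mul, one_mul] at h5
    exact add_eq_right.1 h5
  have hc : c = 0 := by
    have h1 := key (1, 0, 1)
    have h2 : sym ((1, 0, 1) : K × K × K) = 1 := by
      ext i j; fin_cases i <;> fin_cases j <;> simp [sym]
    rwa [h2, mul_one] at h1
  rw [hc] at hA
  exact exists_lev_of_blocks A hA

/-- the other type of elements does not normalize `V` -/
theorem no_lev {A : X K} (h1 : ∃ m, A * XC 1 = up m * A) (h2 : ∀ t, ∃ m, A * XA t = up m * A) : False := by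
  obtain ⟨a, b, c, d, hA⟩ := exists_blocks A
  obtain ⟨m, hm⟩ := h1
  have hc : c = 0 := by
    have h1 : (A : Matrix I4 I4 K) * fromBlocks 1 (sym (0, 1, 0)) 0 1 = fromBlocks 1 (sym m) 0 1 * (A : Matrix I4 I4 K) := congrArg Subtype.val hm
    rw [hA, fromBlocks_multiply, fromBlocks_multiply] at h1
    obtain ⟨-, -, -, h5⟩ := blocks_eq h1
    simp only [mul_one, zero_add, zero_mul, one_mul] at h5
    have h6 : c * sym ((0, 1, 0) : K × K × K) = 0 := add_eq_right.1 h5
    have h7 : sym ((0, 1, 0) : K × K × K) * sym ((0, 1, 0) : K × K × K) = 1 := by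
      ext i j; fin_cases i <;> fin_cases j <;> simp [sym, Matrix.mul_apply, Fin.sum_univ_two]
    calc c = c * (sym ((0, 1, 0) : K × K × K) * sym ((0, 1, 0) : K × K × K)) := by rw [h7, mul_one]
      _ = 0 := by rw [← mul_assoc, h6, zero_mul]
  obtain ⟨m', hm'⟩ := h2 1
  have h3 : (A : Matrix I4 I4 K) * ((XA (1 : K) : X K) : Matrix I4 I4 K) = fromBlocks 1 (sym m') 0 1 * (A : Matrix I4 I4 K) := congrArg Subtype.val hm'
  rw [lev_ut_coe, hA, fromBlocks_multiply, fromBlocks_multiply] at h3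
  obtain ⟨-, -, -, h5⟩ := blocks_eq h3
  simp only [mul_zero, zero_add, zero_mul, one_mul] at h5
  -- second column of `d` vanishes
  have h6 : ∀ i, d i 1 = 0 := by
    intro i
    have := congrFun (congrFun h5 i) 0
    simpa [Matrix.mul_apply, Fin.sum_univ_two] using this
  rw [hc] at hA
  have hA2 := A.2
  rw [hA, SymplecticGroup.mem_iff] at hA2
  simp only [J, fromBlocks_transpose, fromBlocks_multiply] at hA2
  obtain ⟨-, h8, -, -⟩ := blocks_eq hA2
  simp only [mul_zero, mul_one, zero_add, add_zero, mul_neg, neg_mul, Matrix.transpose_zero] at h8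
  have h7 : a * dᵀ = 1 := neg_injective (by rw [← h8])
  have h9 : dᵀ.det = 0 := by
    rw [Matrix.det_fin_two]
    simp [Matrix.transpose_apply, h6]
  have h10 := congrArg Matrix.det h7
  rw [Matrix.det_mul, h9, mul_zero, Matrix.det_one] at h10
  exact zero_ne_one h10

theorem act_fld (P : GL (Fin 2) K) (φ : K ≃+* K) (m : K × K × K) :
    act P φ m = act P 1 (φ m.1, φ m.2.1, φ m.2.2) := rfl

end

section

variable {K : Type*} [Field K] [CharP K 2] [Finite K] {θ : K ≃+* K} {hθ : ∀ t, θ (θ t) = t ^ 2} {Φ : Subgroup (K ≃+* K)}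

theorem tau_XB (hθ : ∀ t, θ (θ t) = t ^ 2) (t : K) : tau θ (XB t) = XA (θ⁻¹ t) := by
  have h := tau_XA hθ (θ⁻¹ t)
  have h1 : θ (θ⁻¹ t) = t := θ.apply_symm_apply t
  rw [h1] at h
  rw [← h, tau_tau hθ]

theorem tau_XD (hθ : ∀ t, θ (θ t) = t ^ 2) (t : K) : tau θ (XD t) = XC (θ⁻¹ t) := by
  have h := tau_XC hθ (θ⁻¹ t)
  have h1 : θ (θ⁻¹ t) = t := θ.apply_symm_apply t
  rw [h1] at h
  rw [← h, tau_tau hθ]

/-- elements of `G` normalizing `V` -/
theorem exists_of_normal (g : GG θ hθ Φ) (h : ∀ n : K × K × K, ∃ m,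
    g * SemidirectProduct.inl (up n) * g⁻¹ = SemidirectProduct.inl (up m)) :
    ∃ (P : GL (Fin 2) K) (m : K × K × K) (φ : K ≃+* K) (_ : φ ∈ Φ), g.left = lev P * up m ∧
      (g.right : MulAut (X K)) = fld φ := by
  have h' : ∀ n : K × K × K, ∃ m, g.left * (g.right : MulAut (X K)) (up n) = up m * g.left := by
    intro n
    obtain ⟨m, hm⟩ := h n
    refine ⟨m, ?_⟩
    rw [conj_inl] at hm
    rw [← SemidirectProduct.inl_injective hm]; group
  obtain ⟨φ, hφ, hr | hr⟩ := mem_DD.1 g.right.2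
  · obtain ⟨P, m, hP⟩ := exists_lev (A := g.left) (fun n => by
      obtain ⟨m, hm⟩ := h' (φ.symm n.1, φ.symm n.2.1, φ.symm n.2.2)
      rw [hr, fld_up] at hm
      simp only [RingEquiv.apply_symm_apply] at hm
      exact ⟨m, hm⟩)
    exact ⟨P, m, φ, hφ, hP, hr⟩
  · exfalso
    refine no_lev (A := g.left) ?_ ?_
    · obtain ⟨m, hm⟩ := h' (0, 0, θ (φ.symm 1))
      rw [hr, MulAut.mul_apply] at hm
      have h1 : tau θ (up (0, 0, θ (φ.symm 1))) = XC (θ⁻¹ (θ (φ.symm 1))) := tau_XD hθ _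
      have h2 : θ⁻¹ (θ (φ.symm 1)) = φ.symm 1 := θ.symm_apply_apply _
      rw [h1, h2] at hm
      have h3 : fld φ (XC (φ.symm 1)) = XC 1 := by
        unfold XC
        rw [fld_up]; simp
      rw [h3] at hm
      exact ⟨m, hm⟩
    · intro t
      obtain ⟨m, hm⟩ := h' (θ (φ.symm t), 0, 0)
      rw [hr, MulAut.mul_apply] at hm
      have h1 : tau θ (up (θ (φ.symm t), 0, 0)) = XA (θ⁻¹ (θ (φ.symm t))) := tau_XB hθ _
      have h2 : θ⁻¹ (θ (φ.symm t)) = φ.symm t := θ.symm_apply_apply _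
      rw [h1, h2, fld_XA, RingEquiv.apply_symm_apply] at hm
      exact ⟨m, hm⟩

/-- conjugation of `V` by an element of the normalizer -/
theorem conj_up {g : GG θ hθ Φ} {P : GL (Fin 2) K} {m : K × K × K} {φ : K ≃+* K} (hl : g.left = lev P * up m)
    (hr : (g.right : MulAut (X K)) = fld φ) (n : K × K × K) :
    g * SemidirectProduct.inl (up n) * g⁻¹ = SemidirectProduct.inl (up (act P φ n)) := by
  rw [conj_inl, hl, hr, fld_up, act_fld]
  congr 1
  have h1 := lev_up P (φ n.1, φ n.2.1, φ n.2.2)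
  have h2 := up_comm m (φ n.1, φ n.2.1, φ n.2.2)
  rw [mul_inv_eq_iff_eq_mul, mul_assoc, h2, ← mul_assoc, h1, mul_assoc]

/-- the centralizer of `Sp₄(K)` -/
theorem centralizer_inl :
    Subgroup.centralizer ((SemidirectProduct.inl : X K →* GG θ hθ Φ).range : Set (GG θ hθ Φ)) = ⊥ := by
  rw [eq_bot_iff]
  intro g hg
  have hg' : ∀ A : X K, g * SemidirectProduct.inl A * g⁻¹ = SemidirectProduct.inl A := by
    intro A
    have := Subgroup.mem_centralizer_iff.1 hg _ ⟨A, rfl⟩
    rw [← this]; group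
  obtain ⟨P, m, φ, hφ, hl, hr⟩ := exists_of_normal g (fun n => ⟨n, hg' _⟩)
  have h1 : ∀ n, act P φ n = n := by
    intro n
    have := hg' (up n)
    rw [conj_up hl hr] at this
    exact up_injective (SemidirectProduct.inl_injective this)
  -- `P = 1`
  have sq0 : ∀ z : K, z ^ 2 = 0 → z = 0 := fun z hz => by simpa using hz
  have sq1 : ∀ z : K, z ^ 2 = 1 → z = 1 := fun z hz => CharTwo.sq_injective (by simpa using hz)
  have e1 := h1 (0, 0, 1)
  have e2 := h1 (1, 0, 0)
  simp only [act, map_zero, map_one, mul_zero, mul_one, add_zero, zero_add, Prod.mk.injEq] at e1 e2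
  obtain ⟨e11, -, e12⟩ := e1
  obtain ⟨e21, -, e22⟩ := e2
  have p10 := sq0 _ e11
  have p00 := sq1 _ e12
  have p11 := sq1 _ e21
  have p01 := sq0 _ e22
  have hP : P = 1 := by
    apply Units.ext
    ext i j
    fin_cases i <;> fin_cases j
    · exact p00
    · exact p01
    · exact p10
    · exact p11
  have hφ1 : φ = 1 := by
    apply RingEquiv.ext
    intro t
    have := h1 (t, 0, 0)
    simp only [act, map_zero, mul_zero, zero_add, p11, p10, one_pow, one_mul, Prod.mk.injEq] at this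
    exact this.1
  rw [hφ1, fld_one] at hr
  rw [hP, lev_one, one_mul] at hl
  have h2 : g.left ∈ Subgroup.center (X K) := by
    rw [Subgroup.mem_center_iff]
    intro A
    have h3 := hg' A
    rw [conj_inl, hr] at h3
    have h4 := SemidirectProduct.inl_injective h3
    have h5 : g.left * A * g.left⁻¹ = A := h4
    rw [mul_inv_eq_iff_eq_mul] at h5
    exact h5.symm
  rw [Cfsg.Agent.ClassicalGeometry.Sp4GraphAut.center_eq_bot (by norm_num), Subgroup.mem_bot] at h2
  rw [Subgroup.mem_bot]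
  apply SemidirectProduct.ext
  · exact h2
  · exact Subtype.ext hr

theorem relG_wd (t u v w : K) : (relG θ hθ Φ).wd t u v w = SemidirectProduct.inl (XA t * up (u, v, w)) := by
  unfold SpRel.wd
  show SemidirectProduct.inl (XA t) * SemidirectProduct.inl (XB u) * SemidirectProduct.inl (XC v) *
    SemidirectProduct.inl (XD w) = _
  rw [← map_mul, ← map_mul, ← map_mul, up_eq]
  simp only [mul_assoc]

theorem relG_wd_inj {t u v w : K} (h : (relG θ hθ Φ).wd t u v w = 1) : t = 0 ∧ u = 0 ∧ v = 0 ∧ w = 0 := by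
  rw [relG_wd] at h
  have h1 : XA t * up (u, v, w) = 1 := SemidirectProduct.inl_injective (h.trans (map_one _).symm)
  have h2 : (XA t : Matrix I4 I4 K) * fromBlocks 1 (sym (u, v, w)) 0 1 = 1 := congrArg Subtype.val h1
  rw [lev_ut_coe, fromBlocks_multiply, ← fromBlocks_one] at h2
  obtain ⟨a1, a2, -, -⟩ := blocks_eq h2
  have b1 := congrFun (congrFun a1 0) 1
  simp at b1
  subst b1
  have h3 : (!![1, 0; 0, 1] : Matrix (Fin 2) (Fin 2) K) = 1 := Matrix.one_fin_two.symm
  rw [h3] at a2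
  simp only [one_mul, zero_mul, add_zero] at a2
  have c1 := congrFun (congrFun a2 0) 0
  have c2 := congrFun (congrFun a2 0) 1
  have c3 := congrFun (congrFun a2 1) 1
  simp [sym] at c1 c2 c3
  exact ⟨rfl, c3, c2, c1⟩

theorem tau_ne_one (hθ : ∀ t, θ (θ t) = t ^ 2) : tau θ ≠ 1 := by
  intro h
  have h1 := tau_XA hθ 1
  rw [h, MulAut.one_apply, map_one] at h1
  have h2 : ((XA (1 : K) : X K) : Matrix I4 I4 K) = fromBlocks 1 (sym (1, 0, 0)) 0 1 := congrArg Subtype.val h1
  rw [lev_ut_coe] at h2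
  obtain ⟨a1, -⟩ := blocks_eq h2
  have b1 := congrFun (congrFun a1 0) 1
  simp at b1

theorem relG_wd_y_ne (t u v w : K) : (relG θ hθ Φ).wd t u v w * (relG θ hθ Φ).y ≠ 1 := by
  intro h
  rw [relG_wd] at h
  have h1 := congrArg SemidirectProduct.right h
  simp only [SemidirectProduct.mul_right, SemidirectProduct.right_inl, one_mul, SemidirectProduct.one_right] at h1
  exact tau_ne_one hθ (congrArg Subtype.val h1)

end

end Cfsg.Agent.H124.SP
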