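import Cfsg.Agent.H124.SP.Uniq
import Cfsg.Agent.H456.HM.Coord
import Cfsg.Agent.H781.Transport

/-!
# S5175, SP: uniqueness for systems of type `Big` (helper124)
-/

set_option autoImplicit false

namespace Cfsg.Agent.H124.SP

open Cfsg Cfsg.FusionSystem Cfsg.Agent.H756.HM Cfsg.Agent.H802
open scoped commutatorElement

variable {Ω : Type*} [Group Ω] {S : Subgroup Ω} {F : FusionSystem S} {K : Type} [Field K] [Fintype K]
  {V T : Subgroup Ω} {x : Ω}

theorem tf_of_conf [Finite S] (c : Conf F K V T x) (hq : 4 ≤ Fintype.card K) (hT : T = V ⊔ cj x V)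
    (hidx : T.relIndex S = 2) : TF S T V x where
  sup := hT
  el := c.el
  nor := c.nor
  cent := c.cent
  x_mem := c.x_mem
  x_nor := c.x_nor
  x_not := c.x_not
  x_sq := c.x_sq
  cen := by
    intro v hv w hw hvw
    obtain ⟨mu, lam, zet, h⟩ := H456.HM.exists_crd c
    have h1 := h.zet_com v hv w hw
    have h2 : v * w * v⁻¹ * w⁻¹ = 1 := by rw [hvw]; group
    have h3 : zet 1 = 0 := (h.zet_zero 1 (Subgroup.one_mem _)).2 (Subgroup.one_mem _)
    rw [h2, h3] at h1
    rcases mul_eq_zero.1 h1.symm with h4 | h4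
    · exact Or.inl ((h.mu_zero v hv).1 h4)
    · exact Or.inr ((h.lam_zero w hw).1 h4)
  idx := hidx
  card := by
    have h1 := H456.HM.card_rel c
    rw [← h1]
    exact Nat.mul_le_mul_right _ hq

theorem tf_of_big [Finite S] (b : Big F K V T x) : TF S T V x :=
  tf_of_conf b.toConf b.q4 b.T_eq b.S_idx

/-- transport of the configuration to another fusion system with the same `Aut(V)` -/
def bigTransport [Finite S] (b : Big F K V T x) (F' : FusionSystem S) (hV : F.autGroup V = F'.autGroup V) :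
    Big F' K V T x where
  n := b.n
  hn := b.hn
  hK := b.hK
  V_le := b.V_le
  fn := (tf_of_big b).isFullyNormalized F' (Or.inl rfl)
  nor := b.nor
  cent := b.cent
  el := b.el
  x_mem := b.x_mem
  x_nor := b.x_nor
  x_not := b.x_not
  x_sq := b.x_sq
  E := b.E
  E_le := by rw [← hV]; exact b.E_le
  ρ := b.ρ
  ψ := b.ψ
  ψ_surj := b.ψ_surj
  ψ_ker := b.ψ_ker
  ψ_eq := b.ψ_eq
  A_le := b.A_le
  A_card := b.A_card
  T_nor := b.T_nor
  DD := b.DD
  q4 := b.q4
  T_eq := b.T_eq
  S_idx := b.S_idx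
  E_nor := by rw [← hV]; exact b.E_nor
  typ := b.typ

universe u

/-- **Uniqueness.** -/
theorem eq_of_big (hEssT : StEssT.{u}) {Ω : Type u} [Group Ω] {S : Subgroup Ω} [Finite S] (hS : IsPGroup 2 S)
    {F F' : FusionSystem S} (hF : F.IsSaturated 2) (hF' : F'.IsSaturated 2) {K : Type} [Field K] [Fintype K]
    {V T : Subgroup Ω} {x : Ω} (b : Big F K V T x) (hV : F.autGroup V = F'.autGroup V)
    (hess : ∀ R : Subgroup Ω, F.IsEssential 2 R → R ≤ T) (hess' : ∀ R : Subgroup Ω, F'.IsEssential 2 R → R ≤ T)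
    (htop : F.autGroup S = F'.autGroup S) : F = F' := by
  have h := tf_of_big b
  refine H781.ext_of_le (fun P => ?_) (fun P => ?_)
  · exact h.le_of_autGroup hS hF hF' hV htop.le (fun R hR => hEssT hS F hF K V T x b R hR (hess R hR)) P
  · exact h.le_of_autGroup hS hF' hF hV.symm htop.ge
      (fun R hR => hEssT hS F' hF' K V T x (bigTransport b F' hV) R hR (hess' R hR)) P

/-- **Uniqueness**, if automorphisms of `S` trivial on `T` are inner. -/
theorem eq_of_big_free (hEssT : StEssT.{u}) {Ω : Type u} [Group Ω] {S : Subgroup Ω} [Finite S] (hS : IsPGroup 2 S)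
    {F F' : FusionSystem S} (hF : F.IsSaturated 2) (hF' : F'.IsSaturated 2) {K : Type} [Field K] [Fintype K]
    {V T : Subgroup Ω} {x : Ω} (b : Big F K V T x) (hV : F.autGroup V = F'.autGroup V)
    (hess : ∀ R : Subgroup Ω, F.IsEssential 2 R → R ≤ T) (hess' : ∀ R : Subgroup Ω, F'.IsEssential 2 R → R ≤ T)
    (hfree : ∀ z ∈ V ⊓ cj x V, z * (x * z * x⁻¹) = 1 → ∃ d ∈ V ⊓ cj x V, z = d * (x * d * x⁻¹)⁻¹) : F = F' :=
  eq_of_big hEssT hS hF hF' b hV hess hess' (le_antisymm
    ((tf_of_big b).autGroup_S_le hS hF hF' hV hfree) ((tf_of_big b).autGroup_S_le hS hF' hF hV.symm hfree))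

/-- for `q ≥ 8` all essential subgroups are in `T` -/
theorem ess_le (hEss : StEss.{u}) {Ω : Type u} [Group Ω] {S : Subgroup Ω} [Finite S] (hS : IsPGroup 2 S)
    {F : FusionSystem S} (hF : F.IsSaturated 2) {K : Type} [Field K] [Fintype K]
    {V T : Subgroup Ω} {x : Ω} (b : Big F K V T x) (hq : Fintype.card K ≠ 4) (R : Subgroup Ω)
    (hR : F.IsEssential 2 R) : R ≤ T := by
  by_contra h
  exact hq (hEss hS F hF K V T x b R hR h).1

end Cfsg.Agent.H124.SP
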