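import Cfsg.Agent.H124.SP.AutV
import Cfsg.Agent.H124.SP.BigTF
import Cfsg.Agent.H311.SP.Sp4Facts

/-!
# S5175, SP: the group side (helper124)
-/

set_option autoImplicit false
set_option linter.unusedSectionVars false

namespace Cfsg.Agent.H124.SP

open Matrix Cfsg Cfsg.FusionSystem Cfsg.Agent.ClassicalGeometry.Sp4Graph Cfsg.Agent.H802 Cfsg.Agent.H756.HM

universe u

section grp

variable {K : Type*} [Field K] [CharP K 2] [Finite K] {θ : K ≃+* K} {hθ : ∀ t, θ (θ t) = t ^ 2} {Φ : Subgroup (K ≃+* K)}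

theorem XA_up_inj {t t' : K} {m m' : K × K × K} (h : XA t * up m = XA t' * up m') : t = t' ∧ m = m' := by
  have h2 : (XA t : Matrix I4 I4 K) * fromBlocks 1 (sym m) 0 1 = (XA t' : Matrix I4 I4 K) * fromBlocks 1 (sym m') 0 1 :=
    congrArg Subtype.val h
  rw [lev_ut_coe, lev_ut_coe, fromBlocks_multiply, fromBlocks_multiply] at h2
  obtain ⟨a1, -, -, -⟩ := blocks_eq h2
  have b1 : t = t' := by
    have := congrFun (congrFun a1 0) 1
    simpa using this
  subst b1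
  exact ⟨rfl, up_injective (mul_left_cancel h)⟩

theorem tauD_ne_one : tauD θ hθ Φ ≠ 1 := fun h => tau_ne_one hθ (congrArg Subtype.val h)

instance finDD : Finite (DD θ hθ Φ) := inferInstance

instance finGG : Finite (GG θ hθ Φ) :=
  Finite.of_injective (fun g : GG θ hθ Φ => (g.left, g.right)) (fun a b h => by
    apply SemidirectProduct.ext
    · exact congrArg Prod.fst h
    · exact congrArg Prod.snd h)

/-- the field automorphisms in `D` -/
noncomputable def D0 (θ : K ≃+* K) (hθ : ∀ t, θ (θ t) = t ^ 2) (Φ : Subgroup (K ≃+* K)) : Subgroup (DD θ hθ Φ) where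
  carrier := {δ | ∃ φ ∈ Φ, (δ : MulAut (X K)) = fld φ}
  one_mem' := ⟨1, Φ.one_mem, rfl⟩
  mul_mem' := by
    rintro a b ⟨φ, hφ, h1⟩ ⟨ψ, hψ, h2⟩
    exact ⟨φ * ψ, Φ.mul_mem hφ hψ, by rw [Subgroup.coe_mul, h1, h2, fld_mul]⟩
  inv_mem' := by
    rintro a ⟨φ, hφ, h1⟩
    exact ⟨φ⁻¹, Φ.inv_mem hφ, by rw [Subgroup.coe_inv, h1, fld_inv]⟩

theorem fld_inj {φ ψ : K ≃+* K} (h : fld φ = fld ψ) : φ = ψ := by
  apply RingEquiv.ext
  intro t
  have h1 : fld φ (XA t) = fld ψ (XA t) := by rw [h]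
  rw [fld_XA, fld_XA] at h1
  have h2 : XA (φ t) * up (0, 0, 0) = XA (ψ t) * up (0, 0, 0) := by rw [h1]
  exact (XA_up_inj h2).1

theorem tau_ne_fld (hθ : ∀ t, θ (θ t) = t ^ 2) (φ : K ≃+* K) : tau θ ≠ fld φ := by
  intro h
  have h1 := tau_XA hθ 1
  rw [h, fld_XA, map_one, map_one] at h1
  have h2 : ((XA (1 : K) : X K) : Matrix I4 I4 K) = fromBlocks 1 (sym (1, 0, 0)) 0 1 := congrArg Subtype.val h1
  rw [lev_ut_coe] at h2
  obtain ⟨a1, -⟩ := blocks_eq h2
  have b1 := congrFun (congrFun a1 0) 1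
  simp at b1

theorem card_D0 : Nat.card (D0 θ hθ Φ) = Nat.card Φ := by
  symm
  refine Nat.card_congr (Equiv.ofBijective (fun φ : Φ => (⟨⟨fld φ, φ, φ.2, Or.inl rfl⟩, φ, φ.2, rfl⟩ : D0 θ hθ Φ)) ⟨?_, ?_⟩)
  · intro a b h
    have h1 : fld (a : K ≃+* K) = fld (b : K ≃+* K) := congrArg (fun z : D0 θ hθ Φ => ((z : DD θ hθ Φ) : MulAut (X K))) h
    exact Subtype.ext (fld_inj h1)
  · rintro ⟨δ, φ, hφ, h⟩
    exact ⟨⟨φ, hφ⟩, Subtype.ext (Subtype.ext h.symm)⟩

theorem D0_index : (D0 θ hθ Φ).index = 2 := by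
  rw [Subgroup.index_eq_two_iff]
  refine ⟨tauD θ hθ Φ, fun b => ?_⟩
  obtain ⟨φ, hφ, h | h⟩ := mem_DD.1 b.2
  · right
    refine ⟨⟨φ, hφ, h⟩, ?_⟩
    rintro ⟨ψ, hψ, h1⟩
    have h2 : fld φ * tau θ = fld ψ := by rw [← h1, Subgroup.coe_mul, h]; rfl
    apply tau_ne_fld hθ (φ⁻¹ * ψ)
    rw [fld_mul, fld_inv, ← h2, inv_mul_cancel_left]
  · left
    refine ⟨⟨φ, hφ, ?_⟩, ?_⟩
    · rw [Subgroup.coe_mul, h]
      show fld φ * tau θ * tau θ = fld φ
      rw [mul_assoc, tau_sq hθ, mul_one]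
    · rintro ⟨ψ, hψ, h1⟩
      rw [h] at h1
      apply tau_ne_fld hθ (φ⁻¹ * ψ)
      rw [fld_mul, fld_inv, ← h1, inv_mul_cancel_left]

theorem card_DD : Nat.card (DD θ hθ Φ) = 2 * Nat.card Φ := by
  have h := (D0 θ hθ Φ).card_mul_index
  rw [card_D0, D0_index] at h
  rw [← h, mul_comm]

theorem card_GG : Nat.card (GG θ hθ Φ) = Nat.card (X K) * (2 * Nat.card Φ) := by
  rw [← card_DD (θ := θ) (hθ := hθ) (Φ := Φ), ← SemidirectProduct.card]

/-- the normal subgroup `Sp₄(K)` -/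
noncomputable def NN0 (θ : K ≃+* K) (hθ : ∀ t, θ (θ t) = t ^ 2) (Φ : Subgroup (K ≃+* K)) : Subgroup (GG θ hθ Φ) :=
  (SemidirectProduct.inl : X K →* GG θ hθ Φ).range

/-- the subgroup of index 2 -/
noncomputable def MM0 (θ : K ≃+* K) (hθ : ∀ t, θ (θ t) = t ^ 2) (Φ : Subgroup (K ≃+* K)) : Subgroup (GG θ hθ Φ) :=
  (D0 θ hθ Φ).comap SemidirectProduct.rightHom

theorem NN0_normal : (NN0 θ hθ Φ).Normal := by
  unfold NN0
  rw [SemidirectProduct.range_inl_eq_ker_rightHom]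
  infer_instance

theorem D0_normal : (D0 θ hθ Φ).Normal := Subgroup.normal_of_index_eq_two D0_index

theorem MM0_normal : (MM0 θ hθ Φ).Normal := D0_normal.comap _

theorem NN0_le : NN0 θ hθ Φ ≤ MM0 θ hθ Φ := by
  rintro _ ⟨A, rfl⟩
  show SemidirectProduct.rightHom (SemidirectProduct.inl A) ∈ D0 θ hθ Φ
  rw [SemidirectProduct.rightHom_inl]
  exact Subgroup.one_mem _

theorem MM0_index : (MM0 θ hθ Φ).index = 2 := by
  unfold MM0
  rw [Subgroup.index_comap_of_surjective _ SemidirectProduct.rightHom_surjective, D0_index]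

theorem card_NN0 : Nat.card (NN0 θ hθ Φ) = Nat.card (X K) :=
  (Nat.card_congr (MonoidHom.ofInjective (SemidirectProduct.inl_injective (φ := (DD θ hθ Φ).subtype))).toEquiv).symm

theorem NN0_relIndex : (NN0 θ hθ Φ).relIndex (MM0 θ hθ Φ) = Nat.card Φ := by
  have h1 := (MM0 θ hθ Φ).card_mul_index
  rw [MM0_index, card_GG] at h1
  have h2 := Subgroup.relIndex_mul_relIndex ⊥ (NN0 θ hθ Φ) (MM0 θ hθ Φ) bot_le NN0_le
  rw [Subgroup.relIndex_bot_left, Subgroup.relIndex_bot_left, card_NN0] at h2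
  have h3 : 0 < Nat.card (X K) := Nat.card_pos
  have h4 : Nat.card (X K) * (NN0 θ hθ Φ).relIndex (MM0 θ hθ Φ) = Nat.card (X K) * Nat.card Φ := by
    have h5 : 2 * Nat.card (MM0 θ hθ Φ) = 2 * (Nat.card (X K) * Nat.card Φ) := by
      rw [mul_comm, h1]; ring
    rw [h2]
    exact Nat.eq_of_mul_eq_mul_left (by norm_num) h5
  exact Nat.eq_of_mul_eq_mul_left h3 h4

end grp

section fus

variable {Ω : Type*} [Group Ω] {S T V : Subgroup Ω} {K : Type*} [Field K] [CharP K 2] [Finite K] {θ : K ≃+* K}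
  {hθ : ∀ t, θ (θ t) = t ^ 2} {Φ : Subgroup (K ≃+* K)}

/-- properties of the embedding -/
structure Emb (co : SpCo S T V K θ) (hθ : ∀ t, θ (θ t) = t ^ 2) (Φ : Subgroup (K ≃+* K)) (ι : S →* GG θ hθ Φ) : Prop where
  w1 : ∀ (t u v w : K) (h : co.wd t u v w ∈ S), ι ⟨co.wd t u v w, h⟩ = SemidirectProduct.inl (XA t * up (u, v, w))
  w2 : ∀ (t u v w : K) (h : co.wd t u v w * co.y ∈ S), ι ⟨co.wd t u v w * co.y, h⟩ =
    SemidirectProduct.inl (XA t * up (u, v, w)) * SemidirectProduct.inr (tauD θ hθ Φ)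

theorem exists_emb (co : SpCo S T V K θ) (hθ : ∀ t, θ (θ t) = t ^ 2) (Φ : Subgroup (K ≃+* K)) :
    ∃ ι : S →* GG θ hθ Φ, Emb co hθ Φ ι := by
  obtain ⟨ι, h1, h2⟩ := exists_hom co (relG θ hθ Φ)
  exact ⟨ι, ⟨fun t u v w h => by rw [h1, relG_wd], fun t u v w h => by rw [h2, relG_wd]; rfl⟩⟩

namespace Emb

variable {co : SpCo S T V K θ} {ι : S →* GG θ hθ Φ} (e : Emb co hθ Φ ι)
include e

theorem inj : Function.Injective ι := by
  rw [injective_iff_map_eq_one]
  rintro ⟨s, hs⟩ h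
  obtain ⟨t, u, v, w, rfl | rfl⟩ := (co.hS s).1 hs
  · have h1 := e.w1 t u v w hs
    have h2 : SemidirectProduct.inl (XA t * up (u, v, w)) = (1 : GG θ hθ Φ) := by rw [← h1]; exact h
    have h3 : XA t * up (u, v, w) = XA 0 * up (0, 0, 0) := by
      have h4 : XA (0 : K) * up (0, 0, 0) = 1 := by
        have h5 : SemidirectProduct.inl (XA (0 : K) * up (0, 0, 0)) = (1 : GG θ hθ Φ) := by
          rw [← relG_wd]
          unfold SpRel.wd
          rw [SpRel.xa_zero, SpRel.xb_zero, SpRel.xc_zero, SpRel.xd_zero]; simp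
        exact SemidirectProduct.inl_injective (h5.trans (map_one _).symm)
      rw [h4]
      exact SemidirectProduct.inl_injective (h2.trans (map_one _).symm)
    obtain ⟨rfl, h6⟩ := XA_up_inj h3
    simp only [Prod.mk.injEq] at h6
    obtain ⟨rfl, rfl, rfl⟩ := h6
    apply Subtype.ext
    show co.xa 0 * co.xb 0 * co.xc 0 * co.xd 0 = 1
    rw [SpRel.xa_zero, SpRel.xb_zero, SpRel.xc_zero, SpRel.xd_zero]; simp
  · exfalso
    have h1 := e.w2 t u v w hs
    have h2 : SemidirectProduct.inl (XA t * up (u, v, w)) * SemidirectProduct.inr (tauD θ hθ Φ) = (1 : GG θ hθ Φ) := by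
      rw [← h1]; exact h
    have h3 := congrArg SemidirectProduct.right h2
    simp only [SemidirectProduct.mul_right, SemidirectProduct.right_inl, one_mul, SemidirectProduct.one_right] at h3
    exact tauD_ne_one h3

theorem card_S : Nat.card S = 2 * Nat.card K ^ 4 := by
  classical
  have hmem1 : ∀ t u v w, co.wd t u v w ∈ S := fun t u v w => (co.hS _).2 ⟨t, u, v, w, Or.inl rfl⟩
  have hmem2 : ∀ t u v w, co.wd t u v w * co.y ∈ S := fun t u v w => (co.hS _).2 ⟨t, u, v, w, Or.inr rfl⟩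
  let f : (K × K × K × K) × Bool → S := fun p =>
    if p.2 then ⟨co.wd p.1.1 p.1.2.1 p.1.2.2.1 p.1.2.2.2 * co.y, hmem2 _ _ _ _⟩
    else ⟨co.wd p.1.1 p.1.2.1 p.1.2.2.1 p.1.2.2.2, hmem1 _ _ _ _⟩
  have hf1 : ∀ t u v w, ι (f ((t, u, v, w), false)) = SemidirectProduct.inl (XA t * up (u, v, w)) := by
    intro t u v w
    exact e.w1 t u v w (hmem1 _ _ _ _)
  have hf2 : ∀ t u v w, ι (f ((t, u, v, w), true)) =
      SemidirectProduct.inl (XA t * up (u, v, w)) * SemidirectProduct.inr (tauD θ hθ Φ) := by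
    intro t u v w
    exact e.w2 t u v w (hmem2 _ _ _ _)
  have hinj : Function.Injective f := by
    rintro ⟨⟨t, u, v, w⟩, ε⟩ ⟨⟨t', u', v', w'⟩, ε'⟩ h
    have h1 := congrArg ι h
    have key : XA t * up (u, v, w) = XA t' * up (u', v', w') → ((t, u, v, w) : K × K × K × K) = (t', u', v', w') := by
      intro h2
      obtain ⟨rfl, h3⟩ := XA_up_inj h2
      rw [h3]
    cases ε <;> cases ε'
    · rw [hf1, hf1] at h1
      rw [key (SemidirectProduct.inl_injective h1)]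
    · rw [hf1, hf2] at h1
      have h3 := congrArg SemidirectProduct.right h1
      simp only [SemidirectProduct.mul_right, SemidirectProduct.right_inl, one_mul, SemidirectProduct.right_inr] at h3
      exact absurd h3.symm tauD_ne_one
    · rw [hf1, hf2] at h1
      have h3 := congrArg SemidirectProduct.right h1
      simp only [SemidirectProduct.mul_right, SemidirectProduct.right_inl, one_mul, SemidirectProduct.right_inr] at h3
      exact absurd h3 tauD_ne_one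
    · rw [hf2, hf2] at h1
      rw [key (SemidirectProduct.inl_injective (mul_right_cancel h1))]
  have hsurj : Function.Surjective f := by
    rintro ⟨s, hs⟩
    obtain ⟨t, u, v, w, rfl | rfl⟩ := (co.hS s).1 hs
    · exact ⟨((t, u, v, w), false), rfl⟩
    · exact ⟨((t, u, v, w), true), rfl⟩
  rw [← Nat.card_congr (Equiv.ofBijective f ⟨hinj, hsurj⟩)]
  simp only [Nat.card_prod, Nat.card_eq_fintype_card, Fintype.card_bool]
  ring

end Emb

/-- the image is a Sylow subgroup -/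
theorem exists_sylow [Finite S] (hS : IsPGroup 2 S) {G : Type*} [Group G] [Finite G] {ι : S →* G}
    (hι : Function.Injective ι) {m : ℕ} (hm : Odd m) (hG : Nat.card G = Nat.card S * m) :
    ∃ P : Sylow 2 G, (P : Subgroup G) = ι.range := by
  have h1 : IsPGroup 2 ι.range := hS.of_surjective ι.rangeRestrict ι.rangeRestrict_surjective
  have h2 : Nat.card ι.range = Nat.card S := (Nat.card_congr (MonoidHom.ofInjective hι).toEquiv).symm
  have h3 : ¬ 2 ∣ ι.range.index := by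
    have h4 := ι.range.card_mul_index
    rw [h2, hG] at h4
    have h5 : ι.range.index = m := Nat.eq_of_mul_eq_mul_left Nat.card_pos h4
    rw [h5]
    exact fun h6 => (Nat.not_even_iff_odd.2 hm) (even_iff_two_dvd.2 h6)
  exact ⟨h1.toSylow h3, rfl⟩

end fus

end Cfsg.Agent.H124.SP
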