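import Cfsg.Agent.H756.HM.Stmts
import Cfsg.Agent.H802.FusEss
import Cfsg.Agent.H802.FusNorm

/-!
# S5175, SP: the two elementary abelian subgroups of `T` (helper124)
-/

set_option autoImplicit false

namespace Cfsg.Agent.H124.SP

open Cfsg Cfsg.FusionSystem Cfsg.Agent.H756.HM Cfsg.Agent.H802
open scoped commutatorElement

/-- the group theoretic situation -/
structure TF {Ω : Type*} [Group Ω] (S T V : Subgroup Ω) (x : Ω) : Prop where
  sup : T = V ⊔ cj x V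
  el : ∀ v ∈ V, v ^ 2 = 1
  nor : normalizerIn S V = T
  cent : centralizerIn S V = V
  x_mem : x ∈ S
  x_nor : x ∈ Subgroup.normalizer (T : Set Ω)
  x_not : x ∉ T
  x_sq : x ^ 2 ∈ T
  cen : ∀ v ∈ V, ∀ w ∈ cj x V, v * w = w * v → v ∈ cj x V ∨ w ∈ V
  idx : T.relIndex S = 2
  card : 4 * Nat.card (V ⊓ cj x V : Subgroup Ω) ≤ Nat.card V

namespace TF

variable {Ω : Type*} [Group Ω] {S T V : Subgroup Ω} {x : Ω}

theorem mem_cj {g : Ω} : g ∈ cj x V ↔ x⁻¹ * g * x ∈ V := by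
  constructor
  · rintro ⟨v, hv, rfl⟩
    have : x⁻¹ * ((MulAut.conj x).toMonoidHom v) * x = v := by
      show x⁻¹ * (x * v * x⁻¹) * x = v
      group
    rw [this]; exact hv
  · intro h
    refine ⟨_, h, ?_⟩
    show x * (x⁻¹ * g * x) * x⁻¹ = g
    group

theorem conj_mem_cj {v : Ω} (hv : v ∈ V) : x * v * x⁻¹ ∈ cj x V := ⟨v, hv, rfl⟩

theorem card_cj : Nat.card (cj x V) = Nat.card V := by
  exact Subgroup.card_map_of_injective (MulAut.conj x).injective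

variable (h : TF S T V x)
include h

theorem T_le : T ≤ S := by rw [← h.nor]; exact inf_le_left

theorem V_le : V ≤ T := by
  rw [h.sup]; exact le_sup_left

theorem W_le : cj x V ≤ T := by
  conv_rhs => rw [h.sup]
  exact le_sup_right

theorem T_norm : T ≤ Subgroup.normalizer (V : Set Ω) := by
  rw [← h.nor]; exact inf_le_right

theorem el' : ∀ v ∈ V, v * v = 1 := fun v hv => by rw [← sq]; exact h.el v hv

theorem inv_eq {v : Ω} (hv : v ∈ V) : v⁻¹ = v := inv_eq_of_mul_eq_one_left (h.el' v hv)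

theorem comm {v w : Ω} (hv : v ∈ V) (hw : w ∈ V) : v * w = w * v := by
  have h1 := h.el' _ (V.mul_mem hv hw)
  have h2 := h.el' v hv
  have h3 := h.el' w hw
  calc v * w = v * w * (v * w) * (v * w)⁻¹ := by group
    _ = (v * w)⁻¹ := by rw [h1, one_mul]
    _ = w⁻¹ * v⁻¹ := by group
    _ = w * v := by rw [h.inv_eq hv, h.inv_eq hw]

theorem el_W {w : Ω} (hw : w ∈ cj x V) : w * w = 1 := by
  obtain ⟨v, hv, rfl⟩ := hw
  show (x * v * x⁻¹) * (x * v * x⁻¹) = 1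
  have : (x * v * x⁻¹) * (x * v * x⁻¹) = x * (v * v) * x⁻¹ := by group
  rw [this, h.el' v hv]; group

theorem comm_W {v w : Ω} (hv : v ∈ cj x V) (hw : w ∈ cj x V) : v * w = w * v := by
  obtain ⟨v, hv, rfl⟩ := hv
  obtain ⟨w, hw, rfl⟩ := hw
  show (x * v * x⁻¹) * (x * w * x⁻¹) = (x * w * x⁻¹) * (x * v * x⁻¹)
  have : (x * v * x⁻¹) * (x * w * x⁻¹) = x * (v * w) * x⁻¹ := by group
  rw [this, h.comm hv hw]; group

theorem conj_x_T {t : Ω} (ht : t ∈ T) : x * t * x⁻¹ ∈ T := (Subgroup.mem_normalizer_iff.1 h.x_nor t).1 ht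

theorem conj_x_T' {t : Ω} (ht : t ∈ T) : x⁻¹ * t * x ∈ T := by
  have := (Subgroup.mem_normalizer_iff.1 ((Subgroup.normalizer (T : Set Ω)).inv_mem h.x_nor) t).1 ht
  simpa using this

theorem T_norm_W : T ≤ Subgroup.normalizer (cj x V : Set Ω) := by
  intro t ht
  rw [Subgroup.mem_normalizer_iff]
  intro g
  have h1 := (Subgroup.mem_normalizer_iff.1 (h.T_norm (h.conj_x_T' ht)) (x⁻¹ * g * x))
  have e1 : x⁻¹ * t * x * (x⁻¹ * g * x) * (x⁻¹ * t * x)⁻¹ = x⁻¹ * (t * g * t⁻¹) * x := by group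
  rw [e1] at h1
  show g ∈ cj x V ↔ t * g * t⁻¹ ∈ cj x V
  rw [mem_cj, mem_cj]
  exact h1

theorem ne : cj x V ≠ V := by
  intro he
  apply h.x_not
  rw [← h.nor]
  refine ⟨h.x_mem, ?_⟩
  refine Subgroup.mem_normalizer_iff.2 ?_
  have key : ∀ g, g ∈ V ↔ x⁻¹ * g * x ∈ V := fun g => by
    conv_lhs => rw [← he]
    exact mem_cj
  intro g
  constructor
  · intro hg
    rw [key]
    have : x⁻¹ * (x * g * x⁻¹) * x = g := by group
    rw [this]; exact hg
  · intro hg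
    rw [key] at hg
    have : x⁻¹ * (x * g * x⁻¹) * x = g := by group
    rw [this] at hg; exact hg

/-- `x` swaps the two subgroups -/
theorem cj_cj : cj x (cj x V) = V := by
  apply le_antisymm
  · rintro _ ⟨_, ⟨v, hv, rfl⟩, rfl⟩
    show x * (x * v * x⁻¹) * x⁻¹ ∈ V
    have e : x * (x * v * x⁻¹) * x⁻¹ = x ^ 2 * v * (x ^ 2)⁻¹ := by rw [sq]; group
    rw [e]
    exact (Subgroup.mem_normalizer_iff.1 (h.T_norm h.x_sq) v).1 hv
  · intro v hv
    rw [mem_cj, mem_cj]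
    have e : x⁻¹ * (x⁻¹ * v * x) * x = (x ^ 2)⁻¹ * v * (x ^ 2)⁻¹⁻¹ := by
      rw [sq, inv_inv, mul_inv_rev]
      simp only [mul_assoc]
    rw [e]
    exact (Subgroup.mem_normalizer_iff.1 (h.T_norm (T.inv_mem h.x_sq)) v).1 hv

theorem conj_mem_V {w : Ω} (hw : w ∈ cj x V) : x * w * x⁻¹ ∈ V := by
  have : x * w * x⁻¹ ∈ cj x (cj x V) := ⟨w, hw, rfl⟩
  rwa [h.cj_cj] at this

theorem cent_W : centralizerIn S (cj x V) = cj x V := by
  apply le_antisymm
  · rintro s ⟨hs, hc⟩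
    rw [mem_cj, ← h.cent]
    refine ⟨S.mul_mem (S.mul_mem (S.inv_mem h.x_mem) hs) h.x_mem, ?_⟩
    refine Subgroup.mem_centralizer_iff.2 ?_
    intro v hv
    have h1 := Subgroup.mem_centralizer_iff.1 hc _ (conj_mem_cj (x := x) hv)
    have h2 : x⁻¹ * (x * v * x⁻¹ * s) * x = x⁻¹ * (s * (x * v * x⁻¹)) * x := by rw [h1]
    calc v * (x⁻¹ * s * x) = x⁻¹ * (x * v * x⁻¹ * s) * x := by group
      _ = x⁻¹ * (s * (x * v * x⁻¹)) * x := h2
      _ = x⁻¹ * s * x * v := by group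
  · intro w hw
    refine ⟨h.T_le (h.W_le hw), Subgroup.mem_centralizer_iff.2 fun w' hw' => h.comm_W hw' hw⟩

theorem nor_W : normalizerIn S (cj x V) = T := by
  apply le_antisymm
  · rintro s ⟨hs, hn⟩
    have h1 : x⁻¹ * s * x ∈ T := by
      rw [← h.nor]
      refine ⟨S.mul_mem (S.mul_mem (S.inv_mem h.x_mem) hs) h.x_mem, ?_⟩
      refine Subgroup.mem_normalizer_iff.2 ?_
      intro v
      have h2 : (x * v * x⁻¹) ∈ cj x V ↔ s * (x * v * x⁻¹) * s⁻¹ ∈ cj x V :=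
        Subgroup.mem_normalizer_iff.1 hn (x * v * x⁻¹)
      rw [mem_cj, mem_cj] at h2
      have e1 : x⁻¹ * (x * v * x⁻¹) * x = v := by group
      have e2 : x⁻¹ * (s * (x * v * x⁻¹) * s⁻¹) * x = x⁻¹ * s * x * v * (x⁻¹ * s * x)⁻¹ := by group
      rw [e1, e2] at h2
      exact h2
    have h2 := h.conj_x_T h1
    have e : x * (x⁻¹ * s * x) * x⁻¹ = s := by group
    rwa [e] at h2
  · intro t ht
    exact ⟨h.T_le ht, h.T_norm_W ht⟩

/-- every element of `T` is a product -/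
theorem exists_mul {t : Ω} (ht : t ∈ T) : ∃ v ∈ V, ∃ w ∈ cj x V, t = v * w := by
  have h1 : V ≤ Subgroup.normalizer (cj x V : Set Ω) := h.V_le.trans h.T_norm_W
  have h2 : t ∈ V ⊔ cj x V := by rw [← h.sup]; exact ht
  have h3 : t ∈ ((V ⊔ cj x V : Subgroup Ω) : Set Ω) := h2
  rw [Subgroup.coe_mul_of_left_le_normalizer_right V (cj x V) h1] at h3
  obtain ⟨v, hv, w, hw, rfl⟩ := Set.mem_mul.1 h3
  exact ⟨v, hv, w, hw, rfl⟩

/-- involutions of `T` -/
theorem mem_or {t : Ω} (ht : t ∈ T) (h2 : t * t = 1) : t ∈ V ∨ t ∈ cj x V := by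
  obtain ⟨v, hv, w, hw, rfl⟩ := h.exists_mul ht
  have h3 : v * w = w * v := by
    have hv1 := h.inv_eq hv
    have hw1 : w⁻¹ = w := inv_eq_of_mul_eq_one_left (h.el_W hw)
    calc v * w = v * w * (v * w) * (v * w)⁻¹ := by group
      _ = (v * w)⁻¹ := by rw [h2, one_mul]
      _ = w⁻¹ * v⁻¹ := by group
      _ = w * v := by rw [hv1, hw1]
  rcases h.cen v hv w hw h3 with h4 | h4
  · exact Or.inr ((cj x V).mul_mem h4 hw)
  · exact Or.inl (V.mul_mem hv h4)

/-- elementary abelian subgroups of `T` -/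
theorem le_or {B : Subgroup Ω} (hB : B ≤ T) (h2 : ∀ b ∈ B, b * b = 1) : B ≤ V ∨ B ≤ cj x V := by
  by_contra hcon
  push Not at hcon
  obtain ⟨h3, h4⟩ := hcon
  rw [SetLike.not_le_iff_exists] at h3 h4
  obtain ⟨a, ha, haV⟩ := h3
  obtain ⟨b, hb, hbW⟩ := h4
  have ha' := (h.mem_or (hB ha) (h2 a ha)).resolve_left haV
  have hb' := (h.mem_or (hB hb) (h2 b hb)).resolve_right hbW
  rcases h.mem_or (hB (B.mul_mem ha hb)) (h2 _ (B.mul_mem ha hb)) with h5 | h5
  · exact haV ((Subgroup.mul_mem_cancel_right V hb').1 h5)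
  · exact hbW ((Subgroup.mul_mem_cancel_left (cj x V) ha').1 h5)

/-- elements of `S` outside `T` swap the two subgroups -/
theorem eq_mul {s : Ω} (hs : s ∈ S) (hsT : s ∉ T) : ∃ t ∈ T, s = x * t := by
  have h1 := h.idx
  rw [Subgroup.relIndex, Subgroup.index_eq_two_iff_exists_notMem_and] at h1
  have h2 : Subgroup.index (T.subgroupOf S) = 2 := h.idx
  have h3 := Subgroup.mul_mem_iff_of_index_two h2 (a := (⟨x⁻¹, S.inv_mem h.x_mem⟩ : S)) (b := (⟨s, hs⟩ : S))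
  rw [Subgroup.mem_subgroupOf, Subgroup.mem_subgroupOf, Subgroup.mem_subgroupOf] at h3
  have h4 : x⁻¹ ∉ T := fun h5 => h.x_not ((Subgroup.inv_mem_iff T).1 h5)
  have h5 : x⁻¹ * s ∈ T := h3.2 (by simp only [h4, hsT])
  exact ⟨x⁻¹ * s, h5, by group⟩

theorem conj_swap {s : Ω} (hs : s ∈ S) (hsT : s ∉ T) {v : Ω} (hv : v ∈ V) : s * v * s⁻¹ ∈ cj x V := by
  obtain ⟨t, ht, rfl⟩ := h.eq_mul hs hsT
  have h1 : t * v * t⁻¹ ∈ V := (Subgroup.mem_normalizer_iff.1 (h.T_norm ht) v).1 hv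
  have e : x * t * v * (x * t)⁻¹ = x * (t * v * t⁻¹) * x⁻¹ := by group
  rw [e]
  exact conj_mem_cj h1

theorem conj_swap' {s : Ω} (hs : s ∈ S) (hsT : s ∉ T) {v : Ω} (hv : v ∈ cj x V) : s * v * s⁻¹ ∈ V := by
  obtain ⟨t, ht, rfl⟩ := h.eq_mul hs hsT
  have h1 : t * v * t⁻¹ ∈ cj x V := (Subgroup.mem_normalizer_iff.1 (h.T_norm_W ht) v).1 hv
  have e : x * t * v * (x * t)⁻¹ = x * (t * v * t⁻¹) * x⁻¹ := by group
  rw [e]
  exact h.conj_mem_V h1

/-- elementary abelian subgroups of `S` of order `|V|` -/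
theorem eq_or [Finite S] {B : Subgroup Ω} (hB : B ≤ S) (h2 : ∀ b ∈ B, b * b = 1) (hc : Nat.card B = Nat.card V) :
    B = V ∨ B = cj x V := by
  have hfT : Finite T := finite_of_le h.T_le
  have hfV : Finite V := finite_of_le (h.V_le.trans h.T_le)
  have hfW : Finite (cj x V) := finite_of_le (h.W_le.trans h.T_le)
  by_cases hBT : B ≤ T
  · rcases h.le_or hBT h2 with h3 | h3
    · exact Or.inl (Subgroup.eq_of_le_of_card_ge h3 hc.ge)
    · exact Or.inr (Subgroup.eq_of_le_of_card_ge h3 (by rw [hc]; exact (card_cj (x := x) (V := V)).le))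
  · exfalso
    rw [SetLike.not_le_iff_exists] at hBT
    obtain ⟨b, hb, hbT⟩ := hBT
    have hcomm : ∀ a ∈ B, b * a * b⁻¹ = a := by
      intro a ha
      have e1 : (b * a) * (b * a) = 1 := h2 _ (B.mul_mem hb ha)
      have e2 : a⁻¹ = a := inv_eq_of_mul_eq_one_left (h2 a ha)
      have e3 : b⁻¹ = b := inv_eq_of_mul_eq_one_left (h2 b hb)
      calc b * a * b⁻¹ = b * a * b := by rw [e3]
        _ = (b * a) * (b * a) * a⁻¹ := by group
        _ = a := by rw [e1, one_mul, e2]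
    have hZ : B ⊓ T ≤ V ⊓ cj x V := by
      intro a ha
      rcases h.mem_or ha.2 (h2 a ha.1) with h3 | h3
      · refine ⟨h3, ?_⟩
        rw [← hcomm a ha.1]
        exact h.conj_swap (hB hb) hbT h3
      · refine ⟨?_, h3⟩
        rw [← hcomm a ha.1]
        exact h.conj_swap' (hB hb) hbT h3
    have hfZ : Finite (V ⊓ cj x V : Subgroup Ω) := finite_of_le (inf_le_left.trans (h.V_le.trans h.T_le))
    have h3 : Nat.card (B ⊓ T : Subgroup Ω) ≤ Nat.card (V ⊓ cj x V : Subgroup Ω) :=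
      Subgroup.card_le_of_le hZ
    have h4 : T.relIndex B ≤ 2 := by
      have h5 := Subgroup.relIndex_le_of_le_right (H := T) (K := B) (L := S) hB (by rw [h.idx]; norm_num)
      rwa [h.idx] at h5
    have h5 : Nat.card (B ⊓ T : Subgroup Ω) * T.relIndex B = Nat.card B := by
      have h6 := Subgroup.relIndex_mul_relIndex ⊥ (B ⊓ T) B bot_le inf_le_left
      rwa [Subgroup.relIndex_bot_left, Subgroup.relIndex_bot_left, Subgroup.inf_relIndex_left] at h6
    have h6 := h.card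
    have h7 : 0 < Nat.card V := Nat.card_pos
    have h8 : 0 < Nat.card (V ⊓ cj x V : Subgroup Ω) := Nat.card_pos
    nlinarith

end TF

end Cfsg.Agent.H124.SP
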