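import Cfsg.Agent.H124.SP.TF

/-!
# S5175, SP: the fusion system is determined by `Aut_F(V)` and `Aut_F(S)` (helper124)
-/

set_option autoImplicit false

namespace Cfsg.Agent.H124.SP

open Cfsg Cfsg.FusionSystem Cfsg.Agent.H756.HM Cfsg.Agent.H802
open scoped commutatorElement

theorem mem_normalizer_of_forall {Ω : Type*} [Group Ω] {V : Subgroup Ω} [Finite V] {g : Ω}
    (h : ∀ v ∈ V, g * v * g⁻¹ ∈ V) : g ∈ Subgroup.normalizer (V : Set Ω) := by
  have h1 : V.map (MulAut.conj g).toMonoidHom = V := by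
    apply Subgroup.eq_of_le_of_card_ge
    · rintro _ ⟨v, hv, rfl⟩
      exact h v hv
    · rw [Subgroup.card_map_of_injective (MulAut.conj g).injective]
  rw [Subgroup.mem_normalizer_iff]
  intro v
  refine ⟨h v, fun hv => ?_⟩
  rw [← h1] at hv
  obtain ⟨u, hu, hue⟩ := hv
  have h2 : g * u * g⁻¹ = g * v * g⁻¹ := hue
  rw [← mul_left_cancel (mul_right_cancel h2)]
  exact hu

namespace TF

variable {Ω : Type*} [Group Ω] {S T V : Subgroup Ω} {x : Ω}

/-- conjugates of `V` -/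
theorem conj_eq_or [Finite S] (h : TF S T V x) {F : FusionSystem S} {P Q : Subgroup Ω} (hP : P = V ∨ P = cj x V)
    (hc : F.IsConj P Q) : Q = V ∨ Q = cj x V := by
  have hcard : Nat.card P = Nat.card V := by
    rcases hP with rfl | rfl
    · rfl
    · exact card_cj
  have hsq : ∀ p ∈ P, p * p = 1 := by
    rcases hP with rfl | rfl
    · exact h.el'
    · intro p hp; exact h.el_W hp
  have hQ : Q ≤ S := isConj_le_right hc
  obtain ⟨φ, hφ, rfl⟩ := hc
  refine h.eq_or hQ ?_ ?_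
  · rintro _ ⟨p, rfl⟩
    rw [← map_mul]
    have : p * p = 1 := Subtype.ext (hsq p p.2)
    rw [this, map_one]
  · rw [← hcard]
    exact (isConj_card_eq (isConj_range hφ)).symm

theorem card_nor (h : TF S T V x) {Q : Subgroup Ω} (hQ : Q = V ∨ Q = cj x V) : normalizerIn S Q = T := by
  rcases hQ with rfl | rfl
  · exact h.nor
  · exact h.nor_W

theorem isFullyNormalized [Finite S] (h : TF S T V x) (F : FusionSystem S) {P : Subgroup Ω}
    (hP : P = V ∨ P = cj x V) : F.IsFullyNormalized P := by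
  refine ⟨?_, fun Q hQ => ?_⟩
  · rcases hP with rfl | rfl
    · exact h.V_le.trans h.T_le
    · exact h.W_le.trans h.T_le
  · rw [h.card_nor hP, h.card_nor (h.conj_eq_or hP hQ)]

/-- `Aut_F(V^x)` is determined by `Aut_F(V)` -/
theorem autGroup_W_le (h : TF S T V x) {F F' : FusionSystem S} (hV : F.autGroup V ≤ F'.autGroup V) :
    F.autGroup (cj x V) ≤ F'.autGroup (cj x V) := by
  have hVS : V ≤ S := h.V_le.trans h.T_le
  have hWS : cj x V ≤ S := h.W_le.trans h.T_le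
  intro α hα
  rw [mem_autGroup_iff _ hWS] at hα ⊢
  -- the conjugate automorphism of `V`
  set e : V ≃* cj x V := V.equivMapOfInjective (MulAut.conj x).toMonoidHom (MulAut.conj x).injective with he
  have hev : ∀ v : V, ((e v : cj x V) : Ω) = x * v * x⁻¹ := fun v => rfl
  have hes : ∀ w : cj x V, ((e.symm w : V) : Ω) = x⁻¹ * w * x := by
    intro w
    have h1 := hev (e.symm w)
    rw [MulEquiv.apply_symm_apply] at h1
    rw [h1]; group
  set β : MulAut V := (e.trans α).trans e.symm with hβ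
  have hβv : ∀ v : V, ((β v : V) : Ω) = x⁻¹ * (α (e v) : cj x V) * x := fun v => hes _
  have h1 : β ∈ F.autGroup V := by
    rw [mem_autGroup_iff _ hVS]
    have c1 : conjHom V x ∈ F.Hom V := F.conj_mem hVS h.x_mem
    have c2 : (cj x V).subtype.comp α.toMonoidHom ∈ F.Hom (cj x V) := hα
    have hm1 : ∀ v : V, conjHom V x v ∈ cj x V := fun v => ⟨v, v.2, rfl⟩
    have c3 := F.comp_mem c1 c2 hm1
    have c4 : conjHom (cj x V) x⁻¹ ∈ F.Hom (cj x V) := F.conj_mem hWS (S.inv_mem h.x_mem)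
    have hm2 : ∀ v : V, (((cj x V).subtype.comp α.toMonoidHom).comp ((conjHom V x).codRestrict (cj x V) hm1)) v ∈ cj x V :=
      fun v => (α _).2
    have c5 := F.comp_mem c3 c4 hm2
    refine mem_of_apply_eq c5 (fun v => ?_)
    show ((β v : V) : Ω) = x⁻¹ * ((α _ : cj x V) : Ω) * x⁻¹⁻¹
    rw [hβv, inv_inv]
    rfl
  have h2 := hV h1
  rw [mem_autGroup_iff _ hVS] at h2
  have c1 : conjHom (cj x V) x⁻¹ ∈ F'.Hom (cj x V) := F'.conj_mem hWS (S.inv_mem h.x_mem)
  have hm1 : ∀ w : cj x V, conjHom (cj x V) x⁻¹ w ∈ V := by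
    intro w
    show x⁻¹ * w * x⁻¹⁻¹ ∈ V
    rw [inv_inv]
    exact mem_cj.1 w.2
  have c3 := F'.comp_mem c1 h2 hm1
  have c4 : conjHom V x ∈ F'.Hom V := F'.conj_mem hVS h.x_mem
  have hm2 : ∀ w : cj x V, ((V.subtype.comp β.toMonoidHom).comp ((conjHom (cj x V) x⁻¹).codRestrict V hm1)) w ∈ V :=
    fun w => (β _).2
  have c5 := F'.comp_mem c3 c4 hm2
  refine mem_of_apply_eq c5 (fun w => ?_)
  show ((α w : cj x V) : Ω) = x * ((β _ : V) : Ω) * x⁻¹
  rw [hβv]
  have e1 : e ((conjHom (cj x V) x⁻¹).codRestrict V hm1 w) = w := by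
    apply Subtype.ext
    rw [hev]
    show x * (x⁻¹ * w * x⁻¹⁻¹) * x⁻¹ = w
    group
  rw [e1]; group

theorem autGroup_W_eq (h : TF S T V x) {F F' : FusionSystem S} (hV : F.autGroup V = F'.autGroup V) :
    F.autGroup (cj x V) = F'.autGroup (cj x V) :=
  le_antisymm (h.autGroup_W_le hV.le) (h.autGroup_W_le hV.ge)

/-- an automorphism of `T` preserving `V` preserves `V^x` -/
theorem map_W [Finite S] (h : TF S T V x) {γ : MulAut T} (hγ : ∀ v : T, (v : Ω) ∈ V → ((γ v : T) : Ω) ∈ V) :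
    ∀ w : T, (w : Ω) ∈ cj x V → ((γ w : T) : Ω) ∈ cj x V := by
  have hfT : Finite T := finite_of_le h.T_le
  have hfV : Finite V := finite_of_le (h.V_le.trans h.T_le)
  -- `γ` is onto on `V`
  have honto : ∀ v : T, ((γ v : T) : Ω) ∈ V → (v : Ω) ∈ V := by
    let f : V → V := fun v => ⟨(γ ⟨v, h.V_le v.2⟩ : T), hγ _ v.2⟩
    have hf : Function.Injective f := by
      intro a b hab
      have h1 : ((γ ⟨a, h.V_le a.2⟩ : T) : Ω) = (γ ⟨b, h.V_le b.2⟩ : T) := congrArg (fun z : V => (z : Ω)) hab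
      have h2 := γ.injective (Subtype.ext h1)
      exact Subtype.ext (Subtype.mk.inj h2)
    intro v hv
    obtain ⟨u, hu⟩ := Finite.surjective_of_injective hf ⟨_, hv⟩
    have h1 : ((γ ⟨u, h.V_le u.2⟩ : T) : Ω) = (γ v : T) := congrArg (fun z : V => (z : Ω)) hu
    have h2 := γ.injective (Subtype.ext h1)
    rw [← h2]; exact u.2
  have key : ∀ w : T, (w : Ω) ∈ cj x V → (w : Ω) ∉ V → ((γ w : T) : Ω) ∈ cj x V := by
    intro w hw hwV
    have h2 : w * w = 1 := Subtype.ext (h.el_W hw)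
    have h1 : ((γ w : T) : Ω) * (γ w : T) = 1 := by
      have := congrArg (fun z : T => (z : Ω)) (congrArg γ h2)
      simpa using this
    exact (h.mem_or (γ w).2 h1).resolve_left (fun h3 => hwV (honto w h3))
  have hex : ∃ w0 ∈ cj x V, w0 ∉ V := by
    by_contra hcon
    push Not at hcon
    exact h.ne (Subgroup.eq_of_le_of_card_ge (H := cj x V) (K := V) hcon card_cj.ge)
  obtain ⟨w0, hw0, hw0V⟩ := hex
  intro w hw
  by_cases hwV : (w : Ω) ∈ V
  · have h1 := key ⟨w0, h.W_le hw0⟩ hw0 hw0V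
    have h2 := key (⟨w0, h.W_le hw0⟩ * w) ((cj x V).mul_mem hw0 hw) (fun h3 => hw0V
      ((Subgroup.mul_mem_cancel_right V hwV).1 h3))
    rw [map_mul] at h2
    exact (Subgroup.mul_mem_cancel_left (cj x V) h1).1 h2
  · exact key w hw hwV

/-- the restriction of an automorphism in `F` to an invariant subgroup -/
theorem exists_restr [Finite S] {F : FusionSystem S} {P R : Subgroup Ω} (hP : P ≤ S) (hRP : R ≤ P) {β : MulAut P}
    (hβ : β ∈ F.autGroup P) (hR : ∀ r : P, (r : Ω) ∈ R → ((β r : P) : Ω) ∈ R) :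
    ∃ α ∈ F.autGroup R, ∀ r : R, ((α r : R) : Ω) = (β ⟨r, hRP r.2⟩ : P) := by
  have hfR : Finite R := finite_of_le (hRP.trans hP)
  set ψ : R →* Ω := (P.subtype.comp β.toMonoidHom).comp (Subgroup.inclusion hRP) with hψ
  have h1 : ψ ∈ F.Hom R := aut_restrict_mem hP hβ hRP (fun x hx => rfl)
  obtain ⟨α, hα, hαe⟩ := exists_aut h1 (range_eq_of_mapsTo h1 (fun r => hR _ r.2))
  exact ⟨α, hα, fun r => by rw [hαe]; rfl⟩

theorem aux [Finite S] (hS : IsPGroup 2 S) (h : TF S T V x) {F F' : FusionSystem S} (hF : F.IsSaturated 2)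
    (hF' : F'.IsSaturated 2) (hV : F.autGroup V = F'.autGroup V) {β : MulAut T} (hβ : β ∈ F.autGroup T)
    (hβV : ∀ v : T, (v : Ω) ∈ V → ((β v : T) : Ω) ∈ V) : β ∈ F'.autGroup T := by
  have hfT : Finite T := finite_of_le h.T_le
  have hfV : Finite V := finite_of_le (h.V_le.trans h.T_le)
  have hfW : Finite (cj x V) := finite_of_le (h.W_le.trans h.T_le)
  have hVS : V ≤ S := h.V_le.trans h.T_le
  have hWS : cj x V ≤ S := h.W_le.trans h.T_le
  -- extend the restriction to `V` inside `F'`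
  obtain ⟨α, hα, hαe⟩ := exists_restr h.T_le h.V_le hβ hβV
  have hα' : α ∈ F'.autGroup V := by rw [← hV]; exact hα
  have hφ : V.subtype.comp α.toMonoidHom ∈ F'.Hom V := (mem_autGroup_iff F' hVS α).1 hα'
  set φ : V →* Ω := V.subtype.comp α.toMonoidHom with hφdef
  have hφr : φ.range = V := range_eq_of_mapsTo hφ (fun v => (α v).2)
  obtain ⟨ψ, hψ, hψe⟩ := (isReceptive_of_isFullyNormalized hS hF' (h.isFullyNormalized F' (Or.inl rfl))).2 V φ hφ hφr
  have hTle : T ≤ extender S V φ :=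
    le_extender_of_extends (ψ := T.subtype.comp β.toMonoidHom) h.V_le h.T_le h.T_norm
      (fun t => h.T_le (β t).2) (fun v hv => (hαe ⟨v, hv⟩).symm)
  have hψT : ψ.comp (Subgroup.inclusion hTle) ∈ F'.Hom T := restrict_mem hψ hTle
  set ψT : T →* Ω := ψ.comp (Subgroup.inclusion hTle) with hψTdef
  have hψv : ∀ v : V, ψT ⟨v, h.V_le v.2⟩ = ((β ⟨v, h.V_le v.2⟩ : T) : Ω) := by
    intro v
    rw [← hαe]
    exact hψe v v.2 (hTle (h.V_le v.2))
  have hmaps : ∀ t : T, ψT t ∈ T := by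
    intro t
    have h1 : ψT t ∈ normalizerIn S V := by
      refine ⟨hom_apply_mem hψT t, ?_⟩
      have h2 : ∀ v : V, ψT t * (φ v) * (ψT t)⁻¹ ∈ V := by
        intro v
        have h3 : (t : Ω) * v * (t : Ω)⁻¹ ∈ V := (Subgroup.mem_normalizer_iff.1 (h.T_norm t.2) v).1 v.2
        have h4 : ψT (t * ⟨v, h.V_le v.2⟩ * t⁻¹) = ψT ⟨_, h.V_le h3⟩ := rfl
        rw [map_mul, map_mul, map_inv, hψv v, hψv ⟨_, h3⟩, ← hαe, ← hαe] at h4
        show ψT t * ((α v : V) : Ω) * (ψT t)⁻¹ ∈ V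
        rw [h4]
        exact (α _).2
      have h3 : ∀ v ∈ V, ψT t * v * (ψT t)⁻¹ ∈ V := by
        intro v hv
        have h4 : v ∈ φ.range := by rw [hφr]; exact hv
        obtain ⟨u, rfl⟩ := h4
        exact h2 u
      exact mem_normalizer_of_forall h3
    rwa [h.nor] at h1
  obtain ⟨β', hβ', hβ'e⟩ := exists_aut hψT (range_eq_of_mapsTo hψT hmaps)
  have hββ : ∀ v : T, (v : Ω) ∈ V → β' v = β v := by
    intro v hv
    apply Subtype.ext
    rw [hβ'e]
    exact hψv ⟨v, hv⟩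
  have hβ'V : ∀ v : T, (v : Ω) ∈ V → ((β' v : T) : Ω) ∈ V := fun v hv => by rw [hββ v hv]; exact hβV v hv
  have hWβ := h.map_W hβV
  have hWβ' := h.map_W hβ'V
  -- the difference
  set δ : MulAut T := β'⁻¹ * β with hδ
  have hδV : ∀ v : T, (v : Ω) ∈ V → δ v = v := by
    intro v hv
    show β'.symm (β v) = v
    rw [← hββ v hv, MulEquiv.symm_apply_apply]
  have hδV' : ∀ v : T, (v : Ω) ∈ V → ((δ v : T) : Ω) ∈ V := fun v hv => by rw [hδV v hv]; exact hv
  have hδW := h.map_W hδV'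
  have hδd : ∀ w : T, (w : Ω)⁻¹ * (δ w : T) ∈ V := by
    intro w
    rw [← h.cent]
    refine ⟨S.mul_mem (S.inv_mem (h.T_le w.2)) (h.T_le (δ w).2), ?_⟩
    refine Subgroup.mem_centralizer_iff.2 ?_
    intro v hv
    have h3 : (w : Ω) * v * (w : Ω)⁻¹ ∈ V := (Subgroup.mem_normalizer_iff.1 (h.T_norm w.2) v).1 hv
    have h4 : δ (w * ⟨v, h.V_le hv⟩ * w⁻¹) = w * ⟨v, h.V_le hv⟩ * w⁻¹ := hδV _ h3
    rw [map_mul, map_mul, map_inv, hδV ⟨v, _⟩ hv] at h4
    have h5 : ((δ w : T) : Ω) * v * ((δ w : T) : Ω)⁻¹ = w * v * (w : Ω)⁻¹ := congrArg Subtype.val h4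
    calc v * ((w : Ω)⁻¹ * (δ w : T)) = (w : Ω)⁻¹ * (w * v * (w : Ω)⁻¹) * (δ w : T) := by group
      _ = (w : Ω)⁻¹ * (((δ w : T) : Ω) * v * ((δ w : T) : Ω)⁻¹) * (δ w : T) := by rw [h5]
      _ = (w : Ω)⁻¹ * (δ w : T) * v := by group
  -- on `V^x`
  obtain ⟨αW, hαW, hαWe⟩ := exists_restr h.T_le h.W_le hβ hWβ
  obtain ⟨αW', hαW', hαWe'⟩ := exists_restr h.T_le h.W_le hβ' hWβ'
  rw [← h.autGroup_W_eq hV] at hαW'
  set A := F.autGroup (cj x V) with hA
  set δW : MulAut (cj x V) := αW'⁻¹ * αW with hδWdef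
  have hδWA : δW ∈ A := A.mul_mem (A.inv_mem hαW') hαW
  have hδWe : ∀ w : cj x V, ((δW w : cj x V) : Ω) = (δ ⟨w, h.W_le w.2⟩ : T) := by
    intro w
    have h1 : αW' (δW w) = αW w := αW'.apply_symm_apply _
    have h2 : ((αW' (δW w) : cj x V) : Ω) = (αW w : cj x V) := by rw [h1]
    rw [hαWe, hαWe'] at h2
    have h3 : β' ⟨(δW w : cj x V), h.W_le (δW w).2⟩ = β ⟨w, h.W_le w.2⟩ := Subtype.ext h2
    have h4 : (⟨(δW w : cj x V), h.W_le (δW w).2⟩ : T) = δ ⟨w, h.W_le w.2⟩ := by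
      show _ = β'.symm (β _)
      rw [← h3, MulEquiv.symm_apply_apply]
    exact congrArg Subtype.val h4
  -- the 2-group `C`
  let C : Subgroup (MulAut (cj x V)) :=
    { carrier := {γ | (∀ w : cj x V, (w : Ω) ∈ V → γ w = w) ∧ ∀ w : cj x V, (w : Ω)⁻¹ * (γ w : cj x V) ∈ V}
      one_mem' := ⟨fun w _ => rfl, fun w => by simp⟩
      mul_mem' := by
        rintro a b ⟨ha1, ha2⟩ ⟨hb1, hb2⟩
        refine ⟨fun w hw => ?_, fun w => ?_⟩
        · rw [MulAut.mul_apply, hb1 w hw, ha1 w hw]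
        · rw [MulAut.mul_apply]
          have h1 := ha2 (b w)
          have h2 := hb2 w
          have e : (w : Ω)⁻¹ * (a (b w) : cj x V) = ((w : Ω)⁻¹ * (b w : cj x V)) * ((b w : cj x V) : Ω)⁻¹ * (a (b w) : cj x V) := by
            group
          rw [e, mul_assoc]
          exact V.mul_mem h2 h1
      inv_mem' := by
        rintro a ⟨ha1, ha2⟩
        refine ⟨fun w hw => ?_, fun w => ?_⟩
        · show a.symm w = w
          rw [MulEquiv.symm_apply_eq, ha1 w hw]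
        · have h1 := ha2 (a.symm w)
          rw [MulEquiv.apply_symm_apply] at h1
          have h2 := V.inv_mem h1
          have e : (((a.symm w : cj x V) : Ω)⁻¹ * w)⁻¹ = (w : Ω)⁻¹ * (a.symm w : cj x V) := by group
          rw [e] at h2
          exact h2 }
  have hCp : IsPGroup 2 C := by
    rintro ⟨γ, hγ1, hγ2⟩
    refine ⟨1, ?_⟩
    apply Subtype.ext
    apply MulEquiv.ext
    intro w
    show (γ ^ 2 ^ 1) w = w
    rw [pow_one, sq, MulAut.mul_apply]
    have h1 : γ w = w * (w⁻¹ * γ w) := by group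
    have h2 : γ (w⁻¹ * γ w) = w⁻¹ * γ w := hγ1 _ (hγ2 w)
    have h3 : γ (γ w) = γ w * (w⁻¹ * γ w) := by
      conv_lhs => rw [h1]
      rw [map_mul, h2]
    rw [h3]
    apply Subtype.ext
    have h4 : ((γ w : cj x V) : Ω) * (w : Ω)⁻¹ = (w : Ω)⁻¹ * (γ w : cj x V) :=
      h.comm_W (γ w).2 ((cj x V).inv_mem w.2)
    show ((γ w : cj x V) : Ω) * ((w : Ω)⁻¹ * (γ w : cj x V)) = w
    rw [← h4, ← mul_assoc, h.el_W (γ w).2, one_mul]
    exact inv_eq_of_mul_eq_one_left (h.el_W w.2)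
  have hAS : autInducedBy S (cj x V) ≤ C := by
    intro γ hγ
    obtain ⟨s, hs, hse⟩ := (mem_autInducedBy_iff S _ γ).1 hγ
    have hsT : s ∈ T := by
      rw [← h.nor_W]
      exact ⟨hs, mem_normalizer_of_aut hse⟩
    obtain ⟨v, hv, w', hw', rfl⟩ := h.exists_mul hsT
    have hse' : ∀ w : cj x V, ((γ w : cj x V) : Ω) = v * w * v⁻¹ := by
      intro w
      rw [hse w]
      have : w' * w * w'⁻¹ = w := by rw [h.comm_W hw' w.2]; group
      calc v * w' * w * (v * w')⁻¹ = v * (w' * w * w'⁻¹) * v⁻¹ := by group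
        _ = v * w * v⁻¹ := by rw [this]
    refine ⟨fun w hw => Subtype.ext ?_, fun w => ?_⟩
    · rw [hse' w, h.comm hv hw]; group
    · rw [hse' w]
      have h1 : (w : Ω)⁻¹ * v * (w : Ω)⁻¹⁻¹ ∈ V :=
        (Subgroup.mem_normalizer_iff.1 (h.T_norm (T.inv_mem (h.W_le w.2))) v).1 hv
      have e : (w : Ω)⁻¹ * (v * w * v⁻¹) = ((w : Ω)⁻¹ * v * (w : Ω)⁻¹⁻¹) * v⁻¹ := by group
      rw [e]
      exact V.mul_mem h1 (V.inv_mem hv)
  have hδC : δW ∈ C := by
    refine ⟨fun w hw => Subtype.ext ?_, fun w => ?_⟩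
    · rw [hδWe, hδV _ hw]
    · rw [hδWe]
      exact hδd ⟨w, h.W_le w.2⟩
  obtain ⟨R, hR⟩ := (isFullyAutomized_of_isFullyNormalized hS hF (h.isFullyNormalized F (Or.inr rfl))).2
  have hmax : (C.subgroupOf A) = R := by
    refine R.is_maximal' ?_ ?_
    · exact IsPGroup.comap_of_injective (H := C) hCp A.subtype A.subtype_injective
    · rw [hR]
      intro γ hγ
      exact hAS hγ
  have h5 : (⟨δW, hδWA⟩ : A) ∈ (R : Subgroup A) := by
    rw [← hmax]; exact hδC
  rw [hR] at h5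
  obtain ⟨s, hs, hse⟩ := (mem_autInducedBy_iff S _ δW).1 h5
  have hsT : s ∈ T := by
    rw [← h.nor_W]
    exact ⟨hs, mem_normalizer_of_aut hse⟩
  obtain ⟨v, hv, w', hw', rfl⟩ := h.exists_mul hsT
  have hfin : δ = MulAut.conj (⟨v, h.V_le hv⟩ : T) := by
    apply MulEquiv.ext
    intro t
    obtain ⟨u, hu, w, hw, htuw⟩ := h.exists_mul t.2
    have h1 : t = ⟨u, h.V_le hu⟩ * ⟨w, h.W_le hw⟩ := Subtype.ext htuw
    rw [h1, map_mul, map_mul, hδV _ hu]
    congr 1
    · apply Subtype.ext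
      show u = v * u * v⁻¹
      rw [h.comm hv hu]; group
    · apply Subtype.ext
      rw [← hδWe ⟨w, hw⟩, hse]
      show v * w' * w * (v * w')⁻¹ = v * w * v⁻¹
      have : w' * w * w'⁻¹ = w := by rw [h.comm_W hw' hw]; group
      calc v * w' * w * (v * w')⁻¹ = v * (w' * w * w'⁻¹) * v⁻¹ := by group
        _ = v * w * v⁻¹ := by rw [this]
  have hβeq : β = β' * δ := by rw [hδ]; group
  rw [hβeq]
  refine (F'.autGroup T).mul_mem hβ' (inn_le_autGroup F' h.T_le ?_)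
  rw [hfin]
  exact ⟨_, rfl⟩

/-- the automorphism of `T` induced by `x` -/
theorem exists_conjx (h : TF S T V x) : ∃ γ : MulAut T, (∀ t : T, ((γ t : T) : Ω) = x * t * x⁻¹) ∧
    ∀ F : FusionSystem S, γ ∈ F.autGroup T := by
  obtain ⟨γ, hγ⟩ := exists_conjAut h.x_nor
  refine ⟨γ, hγ, fun F => autInducedBy_le_autGroup F h.T_le ?_⟩
  rw [mem_autInducedBy_iff]
  exact ⟨x, h.x_mem, hγ⟩

/-- the image of `V` under an automorphism of `T` -/
theorem map_V_or (h : TF S T V x) (β : MulAut T) :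
    (∀ v : T, (v : Ω) ∈ V → ((β v : T) : Ω) ∈ V) ∨ (∀ v : T, (v : Ω) ∈ V → ((β v : T) : Ω) ∈ cj x V) := by
  have h1 : ((V.subgroupOf T).map (T.subtype.comp β.toMonoidHom)) ≤ T := by
    rintro _ ⟨v, -, rfl⟩
    exact (β v).2
  have h2 : ∀ b ∈ ((V.subgroupOf T).map (T.subtype.comp β.toMonoidHom)), b * b = 1 := by
    rintro _ ⟨v, hv, rfl⟩
    rw [← map_mul]
    have : v * v = 1 := Subtype.ext (h.el' v hv)
    rw [this, map_one]
  rcases h.le_or h1 h2 with h3 | h3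
  · exact Or.inl fun v hv => h3 ⟨v, hv, rfl⟩
  · exact Or.inr fun v hv => h3 ⟨v, hv, rfl⟩

theorem autGroup_T_le [Finite S] (hS : IsPGroup 2 S) (h : TF S T V x) {F F' : FusionSystem S} (hF : F.IsSaturated 2)
    (hF' : F'.IsSaturated 2) (hV : F.autGroup V = F'.autGroup V) : F.autGroup T ≤ F'.autGroup T := by
  intro β hβ
  rcases h.map_V_or β with h1 | h1
  · exact aux hS h hF hF' hV hβ h1
  · obtain ⟨γ, hγ, hγF⟩ := h.exists_conjx
    have h2 : γ * β ∈ F'.autGroup T := by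
      refine aux hS h hF hF' hV ((F.autGroup T).mul_mem (hγF F) hβ) (fun v hv => ?_)
      rw [MulAut.mul_apply, hγ]
      exact h.conj_mem_V (h1 v hv)
    have h3 := (F'.autGroup T).mul_mem ((F'.autGroup T).inv_mem (hγF F')) h2
    rwa [inv_mul_cancel_left] at h3

/-- **Uniqueness**: `F ≤ F'`. -/
theorem le_of_autGroup [Finite S] (hS : IsPGroup 2 S) (h : TF S T V x) {F F' : FusionSystem S} (hF : F.IsSaturated 2)
    (hF' : F'.IsSaturated 2) (hV : F.autGroup V = F'.autGroup V) (htop : F.autGroup S ≤ F'.autGroup S)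
    (hess : ∀ R, F.IsEssential 2 R → R = V ∨ R = cj x V ∨ R = T) (P : Subgroup Ω) : F.Hom P ⊆ F'.Hom P := by
  refine le_of_essential hS hF F' htop (fun Q hQ _ => ?_) P
  rcases hess Q hQ with rfl | rfl | rfl
  · exact hV.le
  · exact h.autGroup_W_le hV.le
  · exact autGroup_T_le hS h hF hF' hV

/-- automorphisms of `S` in `F` are in `F'`, if `H¹(S/T, Z(T))` vanishes -/
theorem autGroup_S_le [Finite S] (hS : IsPGroup 2 S) (h : TF S T V x) {F F' : FusionSystem S} (hF : F.IsSaturated 2)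
    (hF' : F'.IsSaturated 2) (hV : F.autGroup V = F'.autGroup V)
    (hfree : ∀ z ∈ V ⊓ cj x V, z * (x * z * x⁻¹) = 1 → ∃ d ∈ V ⊓ cj x V, z = d * (x * d * x⁻¹)⁻¹) :
    F.autGroup S ≤ F'.autGroup S := by
  have hfT : Finite T := finite_of_le h.T_le
  -- reduction to automorphisms preserving `V`
  suffices hmain : ∀ α : MulAut S, α ∈ F.autGroup S → (∀ v : S, (v : Ω) ∈ V → ((α v : S) : Ω) ∈ V) →
      α ∈ F'.autGroup S by
    intro α hα
    have h1 : ((V.subgroupOf S).map (S.subtype.comp α.toMonoidHom)) ≤ S := by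
      rintro _ ⟨v, -, rfl⟩
      exact (α v).2
    have h2 : ∀ b ∈ ((V.subgroupOf S).map (S.subtype.comp α.toMonoidHom)), b * b = 1 := by
      rintro _ ⟨v, hv, rfl⟩
      rw [← map_mul]
      have : v * v = 1 := Subtype.ext (h.el' v hv)
      rw [this, map_one]
    have h3 : Nat.card ((V.subgroupOf S).map (S.subtype.comp α.toMonoidHom)) = Nat.card V := by
      rw [Subgroup.card_map_of_injective (f := S.subtype.comp α.toMonoidHom)
        (fun a b hab => α.injective (Subtype.ext hab))]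
      exact Nat.card_congr (Subgroup.subgroupOfEquivOfLe (h.V_le.trans h.T_le)).toEquiv
    rcases h.eq_or h1 h2 h3 with h4 | h4
    · exact hmain α hα (fun v hv => by rw [← h4]; exact ⟨v, hv, rfl⟩)
    · obtain ⟨γ, hγ⟩ : ∃ γ : MulAut S, ∀ s : S, ((γ s : S) : Ω) = x * s * x⁻¹ :=
        ⟨MulAut.conj ⟨x, h.x_mem⟩, fun s => rfl⟩
      have hγF : ∀ F : FusionSystem S, γ ∈ F.autGroup S := fun F => by
        refine autInducedBy_le_autGroup F le_rfl ?_
        rw [mem_autInducedBy_iff]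
        exact ⟨x, h.x_mem, hγ⟩
      have h5 : γ * α ∈ F'.autGroup S := by
        refine hmain _ ((F.autGroup S).mul_mem (hγF F) hα) (fun v hv => ?_)
        rw [MulAut.mul_apply, hγ]
        refine h.conj_mem_V ?_
        rw [← h4]; exact ⟨v, hv, rfl⟩
      have h6 := (F'.autGroup S).mul_mem ((F'.autGroup S).inv_mem (hγF F')) h5
      rwa [inv_mul_cancel_left] at h6
  intro α hα hαV
  have hfV : Finite V := finite_of_le (h.V_le.trans h.T_le)
  -- `α` preserves `T`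
  have hontoV : ∀ v ∈ V, ∃ u : S, (u : Ω) ∈ V ∧ ((α u : S) : Ω) = v := by
    let f : V → V := fun v => ⟨(α ⟨v, h.T_le (h.V_le v.2)⟩ : S), hαV _ v.2⟩
    have hf : Function.Injective f := by
      intro a b hab
      have h1 : ((α ⟨a, h.T_le (h.V_le a.2)⟩ : S) : Ω) = (α ⟨b, h.T_le (h.V_le b.2)⟩ : S) :=
        congrArg (fun z : V => (z : Ω)) hab
      exact Subtype.ext (Subtype.mk.inj (α.injective (Subtype.ext h1)))
    intro v hv
    obtain ⟨u, hu⟩ := Finite.surjective_of_injective hf ⟨v, hv⟩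
    exact ⟨⟨u, h.T_le (h.V_le u.2)⟩, u.2, congrArg (fun z : V => (z : Ω)) hu⟩
  have hαT : ∀ t : S, (t : Ω) ∈ T → ((α t : S) : Ω) ∈ T := by
    intro t ht
    have h1 : ((α t : S) : Ω) ∈ normalizerIn S V := by
      refine ⟨(α t).2, mem_normalizer_of_forall (fun v hv => ?_)⟩
      obtain ⟨u, hu, rfl⟩ := hontoV v hv
      have h3 : (t : Ω) * u * (t : Ω)⁻¹ ∈ V := (Subgroup.mem_normalizer_iff.1 (h.T_norm ht) u).1 hu
      have h4 := hαV (t * u * t⁻¹) h3
      rw [map_mul, map_mul, map_inv] at h4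
      exact h4
    rwa [h.nor] at h1
  obtain ⟨β, hβ, hβe⟩ := exists_restr le_rfl h.T_le hα hαT
  have hβ' := autGroup_T_le hS h hF hF' hV hβ
  -- extend `β` in `F'`
  have hTn : S ≤ Subgroup.normalizer (T : Set Ω) := by
    intro s hs
    by_cases hsT : s ∈ T
    · exact Subgroup.le_normalizer hsT
    · obtain ⟨t, ht, rfl⟩ := h.eq_mul hs hsT
      exact Subgroup.mul_mem _ h.x_nor (Subgroup.le_normalizer ht)
  have hTfn : F'.IsFullyNormalized T := by
    refine ⟨h.T_le, fun Q hQ => ?_⟩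
    have h1 : normalizerIn S T = S := le_antisymm inf_le_left (le_inf le_rfl hTn)
    rw [h1]
    exact Subgroup.card_le_of_le inf_le_left
  have hφ : T.subtype.comp β.toMonoidHom ∈ F'.Hom T := (mem_autGroup_iff F' h.T_le β).1 hβ'
  set φ : T →* Ω := T.subtype.comp β.toMonoidHom with hφdef
  have hφr : φ.range = T := range_eq_of_mapsTo hφ (fun v => (β v).2)
  obtain ⟨ψ, hψ, hψe⟩ := (isReceptive_of_isFullyNormalized hS hF' hTfn).2 T φ hφ hφr
  have hSle : S ≤ extender S T φ :=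
    le_extender_of_extends (ψ := S.subtype.comp α.toMonoidHom) h.T_le le_rfl hTn
      (fun t => (α t).2) (fun v hv => (hβe ⟨v, hv⟩).symm)
  have hψS : ψ.comp (Subgroup.inclusion hSle) ∈ F'.Hom S := restrict_mem hψ hSle
  obtain ⟨α', hα', hα'e⟩ := exists_aut hψS (range_eq_of_mapsTo hψS (fun s => hom_apply_mem hψS s))
  have hαα : ∀ t : S, (t : Ω) ∈ T → α' t = α t := by
    intro t ht
    apply Subtype.ext
    rw [hα'e]
    refine (hψe t ht (hSle (h.T_le ht))).trans ?_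
    exact hβe ⟨t, ht⟩
  set δ : MulAut S := α'⁻¹ * α with hδ
  have hδT : ∀ t : S, (t : Ω) ∈ T → δ t = t := by
    intro t ht
    show α'.symm (α t) = t
    rw [← hαα t ht, MulEquiv.symm_apply_apply]
  set X : S := ⟨x, h.x_mem⟩ with hX
  set z : Ω := (δ X : S) * x⁻¹ with hz
  have hδx : ((δ X : S) : Ω) = z * x := by rw [hz]; group
  have hzc : ∀ t ∈ T, z * t = t * z := by
    intro t ht
    have h1 : x⁻¹ * t * x ∈ T := h.conj_x_T' ht
    have h2 : δ (X * ⟨_, h.T_le h1⟩ * X⁻¹) = X * ⟨_, h.T_le h1⟩ * X⁻¹ := by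
      refine hδT _ ?_
      show x * (x⁻¹ * t * x) * x⁻¹ ∈ T
      have : x * (x⁻¹ * t * x) * x⁻¹ = t := by group
      rw [this]; exact ht
    rw [map_mul, map_mul, map_inv, hδT ⟨x⁻¹ * t * x, _⟩ h1] at h2
    have h3 : (δ X : S) * (x⁻¹ * t * x) * ((δ X : S) : Ω)⁻¹ = x * (x⁻¹ * t * x) * x⁻¹ := congrArg Subtype.val h2
    rw [hδx] at h3
    have h4 : z * t * z⁻¹ = t := by
      calc z * t * z⁻¹ = z * x * (x⁻¹ * t * x) * (z * x)⁻¹ := by group
        _ = x * (x⁻¹ * t * x) * x⁻¹ := h3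
        _ = t := by group
    calc z * t = z * t * z⁻¹ * z := by group
      _ = t * z := by rw [h4]
  have hzS : z ∈ S := S.mul_mem (δ X).2 (S.inv_mem h.x_mem)
  have hzV : z ∈ V := by
    rw [← h.cent]
    exact ⟨hzS, Subgroup.mem_centralizer_iff.2 fun v hv => (hzc v (h.V_le hv)).symm⟩
  have hzW : z ∈ cj x V := by
    rw [← h.cent_W]
    exact ⟨hzS, Subgroup.mem_centralizer_iff.2 fun v hv => (hzc v (h.W_le hv)).symm⟩
  have hzz : z * (x * z * x⁻¹) = 1 := by
    have h1 : δ (X * X) = X * X := by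
      refine hδT _ ?_
      show x * x ∈ T
      rw [← sq]; exact h.x_sq
    rw [map_mul] at h1
    have h2 : ((δ X : S) : Ω) * (δ X : S) = x * x := congrArg Subtype.val h1
    rw [hδx] at h2
    calc z * (x * z * x⁻¹) = z * x * (z * x) * (x * x)⁻¹ := by group
      _ = 1 := by rw [h2]; group
  obtain ⟨d, hd, hdz⟩ := hfree z ⟨hzV, hzW⟩ hzz
  have hdT : d ∈ T := h.V_le hd.1
  have hdc : ∀ t ∈ T, d * t = t * d := by
    intro t ht
    obtain ⟨v, hv, w, hw, rfl⟩ := h.exists_mul ht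
    have h1 := h.comm hd.1 hv
    have h2 := h.comm_W hd.2 hw
    calc d * (v * w) = (d * v) * w := by group
      _ = v * (d * w) := by rw [h1]; group
      _ = v * w * d := by rw [h2]; group
  have hfin : δ = MulAut.conj (⟨d, h.T_le hdT⟩ : S) := by
    have hT1 : ∀ t : S, (t : Ω) ∈ T → δ t = MulAut.conj (⟨d, h.T_le hdT⟩ : S) t := by
      intro t ht
      rw [hδT t ht]
      apply Subtype.ext
      show (t : Ω) = d * t * d⁻¹
      rw [hdc t ht]; group
    have hX1 : δ X = MulAut.conj (⟨d, h.T_le hdT⟩ : S) X := by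
      apply Subtype.ext
      rw [hδx]
      show z * x = d * x * d⁻¹
      rw [hdz]; group
    apply MulEquiv.ext
    intro s
    by_cases hsT : (s : Ω) ∈ T
    · exact hT1 s hsT
    · obtain ⟨t, ht, hst⟩ := h.eq_mul s.2 hsT
      have h1 : s = X * ⟨t, h.T_le ht⟩ := Subtype.ext hst
      rw [h1, map_mul, map_mul, hT1 ⟨t, _⟩ ht, hX1]
  have hαeq : α = α' * δ := by rw [hδ]; group
  rw [hαeq]
  refine (F'.autGroup S).mul_mem hα' (inn_le_autGroup F' le_rfl ?_)
  rw [hfin]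
  exact ⟨_, rfl⟩

end TF

end Cfsg.Agent.H124.SP
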