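import Cfsg.Agent.H124.SP.Defs

/-!
# S5175, SP: words in the generators, the homomorphism from `S` (helper124)
-/

set_option autoImplicit false
set_option linter.unusedSectionVars false

namespace Cfsg.Agent.H124.SP

open Cfsg

namespace SpRel

variable {H : Type*} [Group H] {K : Type*} [Field K] [CharP K 2] {θ : K ≃+* K}

section

variable (r : SpRel H K θ)

theorem xa_zero : r.xa 0 = 1 := by
  have h := r.xa_add 0 0
  rw [add_zero] at h
  exact left_eq_mul.1 h

theorem xb_zero : r.xb 0 = 1 := by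
  have h := r.xb_add 0 0
  rw [add_zero] at h
  exact left_eq_mul.1 h

theorem xc_zero : r.xc 0 = 1 := by
  have h := r.xc_add 0 0
  rw [add_zero] at h
  exact left_eq_mul.1 h

theorem xd_zero : r.xd 0 = 1 := by
  have h := r.xd_add 0 0
  rw [add_zero] at h
  exact left_eq_mul.1 h

theorem xa_sq (t : K) : r.xa t * r.xa t = 1 := by
  rw [← r.xa_add, CharTwo.add_self_eq_zero, r.xa_zero]

theorem xb_sq (t : K) : r.xb t * r.xb t = 1 := by
  rw [← r.xb_add, CharTwo.add_self_eq_zero, r.xb_zero]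

theorem xc_sq (t : K) : r.xc t * r.xc t = 1 := by
  rw [← r.xc_add, CharTwo.add_self_eq_zero, r.xc_zero]

theorem xd_sq (t : K) : r.xd t * r.xd t = 1 := by
  rw [← r.xd_add, CharTwo.add_self_eq_zero, r.xd_zero]

theorem xa_inv (t : K) : (r.xa t)⁻¹ = r.xa t := inv_eq_of_mul_eq_one_left (r.xa_sq t)
theorem xb_inv (t : K) : (r.xb t)⁻¹ = r.xb t := inv_eq_of_mul_eq_one_left (r.xb_sq t)
theorem xc_inv (t : K) : (r.xc t)⁻¹ = r.xc t := inv_eq_of_mul_eq_one_left (r.xc_sq t)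
theorem xd_inv (t : K) : (r.xd t)⁻¹ = r.xd t := inv_eq_of_mul_eq_one_left (r.xd_sq t)
theorem y_inv : r.y⁻¹ = r.y := inv_eq_of_mul_eq_one_left r.y_sq

theorem y_y (g : H) : r.y * (r.y * g) = g := by rw [← mul_assoc, r.y_sq, one_mul]

theorem ya' (t : K) : r.y * r.xa t = r.xb (θ t) * r.y := by
  rw [← r.ya t, mul_assoc, r.y_sq, mul_one]

theorem yb' (t : K) : r.y * r.xb t = r.xa (θ.symm t) * r.y := by
  have h := r.ya (θ.symm t)
  rw [RingEquiv.apply_symm_apply] at h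
  rw [← h]
  simp only [mul_assoc]
  rw [r.y_y]

theorem yc' (t : K) : r.y * r.xc t = r.xd (θ t) * r.y := by
  rw [← r.yc t, mul_assoc, r.y_sq, mul_one]

theorem yd' (t : K) : r.y * r.xd t = r.xc (θ.symm t) * r.y := by
  have h := r.yc (θ.symm t)
  rw [RingEquiv.apply_symm_apply] at h
  rw [← h]
  simp only [mul_assoc]
  rw [r.y_y]

theorem ba (u t : K) : r.xb u * r.xa t = r.xa t * r.xb u * r.xc (t * u) * r.xd (t ^ 2 * u) := by
  rw [r.ab]
  have h1 := r.cd (t * u) (t ^ 2 * u)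
  calc r.xb u * r.xa t = r.xb u * r.xa t * (r.xc (t * u) * r.xc (t * u)) * (r.xd (t ^ 2 * u) * r.xd (t ^ 2 * u)) := by
        rw [r.xc_sq, r.xd_sq, mul_one, mul_one]
    _ = r.xb u * r.xa t * r.xc (t * u) * (r.xc (t * u) * r.xd (t ^ 2 * u)) * r.xd (t ^ 2 * u) := by group
    _ = r.xb u * r.xa t * r.xc (t * u) * r.xd (t ^ 2 * u) * r.xc (t * u) * r.xd (t ^ 2 * u) := by rw [h1]; group

/-- the words without `y` -/
def wd (t u v w : K) : H := r.xa t * r.xb u * r.xc v * r.xd w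

theorem wd_xd (t u v w w' : K) : r.wd t u v w * r.xd w' = r.wd t u v (w + w') := by
  unfold wd
  rw [r.xd_add]; group

theorem wd_xc (t u v w v' : K) : r.wd t u v w * r.xc v' = r.wd t u (v + v') w := by
  unfold wd
  rw [r.xc_add, mul_assoc _ (r.xd w), ← r.cd]; group

theorem wd_xb (t u v w u' : K) : r.wd t u v w * r.xb u' = r.wd t (u + u') v w := by
  unfold wd
  rw [r.xb_add, mul_assoc _ (r.xd w), ← r.bd, ← mul_assoc, mul_assoc _ (r.xc v), ← r.bc]; group

theorem wd_xa (t u v w t' : K) : r.wd t u v w * r.xa t' = r.wd (t + t') u (v + t' * u) (w + t' ^ 2 * u) := by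
  have h1 : r.wd t u v w * r.xa t' = r.xa t * (r.xb u * r.xa t') * r.xc v * r.xd w := by
    unfold wd
    rw [mul_assoc _ (r.xd w), ← r.ad, ← mul_assoc, mul_assoc _ (r.xc v), ← r.ac]; group
  rw [h1, r.ba]
  unfold wd
  rw [r.xa_add, r.xc_add, r.xd_add]
  have h2 := r.cd v (t' ^ 2 * u)
  have h3 := r.cd v w
  have h4 : r.xc (t' * u) * r.xc v = r.xc v * r.xc (t' * u) := by
    rw [← r.xc_add, ← r.xc_add, add_comm]
  have h5 : r.xd (t' ^ 2 * u) * r.xd w = r.xd w * r.xd (t' ^ 2 * u) := by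
    rw [← r.xd_add, ← r.xd_add, add_comm]
  calc _ = r.xa t * r.xa t' * r.xb u * r.xc (t' * u) * (r.xd (t' ^ 2 * u) * r.xc v) * r.xd w := by group
    _ = r.xa t * r.xa t' * r.xb u * (r.xc (t' * u) * r.xc v) * (r.xd (t' ^ 2 * u) * r.xd w) := by rw [← h2]; group
    _ = _ := by rw [h4, h5]

/-- the set of words is closed under right multiplication by generators -/
theorem wd_y (t u v w : K) : r.y * r.wd t u v w = r.xb (θ t) * r.xa (θ.symm u) * r.xd (θ v) * r.xc (θ.symm w) * r.y := by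
  unfold wd
  have h1 := r.ya' t
  have h2 := r.yb' u
  have h3 := r.yc' v
  have h4 := r.yd' w
  calc r.y * (r.xa t * r.xb u * r.xc v * r.xd w) = (r.y * r.xa t) * r.xb u * r.xc v * r.xd w := by group
    _ = r.xb (θ t) * (r.y * r.xb u) * r.xc v * r.xd w := by rw [h1]; group
    _ = r.xb (θ t) * r.xa (θ.symm u) * (r.y * r.xc v) * r.xd w := by rw [h2]; group
    _ = r.xb (θ t) * r.xa (θ.symm u) * r.xd (θ v) * (r.y * r.xd w) := by rw [h3]; group
    _ = _ := by rw [h4]; group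

/-- the predicate: `g` is a word -/
def IsW (g : H) : Prop := ∃ t u v w, g = r.wd t u v w ∨ g = r.wd t u v w * r.y

theorem isW_one : r.IsW 1 := ⟨0, 0, 0, 0, Or.inl (by unfold wd; rw [r.xa_zero, r.xb_zero, r.xc_zero, r.xd_zero]; simp)⟩

theorem IsW.mul_y {g : H} (h : r.IsW g) : r.IsW (g * r.y) := by
  obtain ⟨t, u, v, w, h | h⟩ := h
  · exact ⟨t, u, v, w, Or.inr (by rw [h])⟩
  · exact ⟨t, u, v, w, Or.inl (by rw [h, mul_assoc, r.y_sq, mul_one])⟩

theorem IsW.mul_xa {g : H} (h : r.IsW g) (s : K) : r.IsW (g * r.xa s) := by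
  obtain ⟨t, u, v, w, h | h⟩ := h
  · exact ⟨_, _, _, _, Or.inl (by rw [h, r.wd_xa])⟩
  · exact ⟨_, _, _, _, Or.inr (by rw [h, mul_assoc, r.ya', ← mul_assoc, r.wd_xb])⟩

theorem IsW.mul_xb {g : H} (h : r.IsW g) (s : K) : r.IsW (g * r.xb s) := by
  obtain ⟨t, u, v, w, h | h⟩ := h
  · exact ⟨_, _, _, _, Or.inl (by rw [h, r.wd_xb])⟩
  · exact ⟨_, _, _, _, Or.inr (by rw [h, mul_assoc, r.yb', ← mul_assoc, r.wd_xa])⟩

theorem IsW.mul_xc {g : H} (h : r.IsW g) (s : K) : r.IsW (g * r.xc s) := by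
  obtain ⟨t, u, v, w, h | h⟩ := h
  · exact ⟨_, _, _, _, Or.inl (by rw [h, r.wd_xc])⟩
  · exact ⟨_, _, _, _, Or.inr (by rw [h, mul_assoc, r.yc', ← mul_assoc, r.wd_xd])⟩

theorem IsW.mul_xd {g : H} (h : r.IsW g) (s : K) : r.IsW (g * r.xd s) := by
  obtain ⟨t, u, v, w, h | h⟩ := h
  · exact ⟨_, _, _, _, Or.inl (by rw [h, r.wd_xd])⟩
  · exact ⟨_, _, _, _, Or.inr (by rw [h, mul_assoc, r.yd', ← mul_assoc, r.wd_xc])⟩

/-- the subgroup of words -/
def words : Subgroup H where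
  carrier := {g | r.IsW g}
  one_mem' := r.isW_one
  mul_mem' := by
    rintro a b ha ⟨t, u, v, w, rfl | rfl⟩
    · have h := (((ha.mul_xa r t).mul_xb r u).mul_xc r v).mul_xd r w
      have e : a * r.wd t u v w = a * r.xa t * r.xb u * r.xc v * r.xd w := by unfold wd; group
      show r.IsW (a * r.wd t u v w)
      rw [e]; exact h
    · have h := ((((ha.mul_xa r t).mul_xb r u).mul_xc r v).mul_xd r w).mul_y
      have e : a * (r.wd t u v w * r.y) = a * r.xa t * r.xb u * r.xc v * r.xd w * r.y := by unfold wd; group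
      show r.IsW (a * (r.wd t u v w * r.y))
      rw [e]; exact h
  inv_mem' := by
    rintro a ⟨t, u, v, w, rfl | rfl⟩
    · have h := (((r.isW_one.mul_xd r w).mul_xc r v).mul_xb r u).mul_xa r t
      have e : (r.wd t u v w)⁻¹ = 1 * r.xd w * r.xc v * r.xb u * r.xa t := by
        unfold wd
        rw [mul_inv_rev, mul_inv_rev, mul_inv_rev, r.xa_inv, r.xb_inv, r.xc_inv, r.xd_inv]; group
      show r.IsW (r.wd t u v w)⁻¹
      rw [e]; exact h
    · have h := ((((r.isW_one.mul_y).mul_xd r w).mul_xc r v).mul_xb r u).mul_xa r t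
      have e : (r.wd t u v w * r.y)⁻¹ = 1 * r.y * r.xd w * r.xc v * r.xb u * r.xa t := by
        unfold wd
        rw [mul_inv_rev, mul_inv_rev, mul_inv_rev, mul_inv_rev, r.xa_inv, r.xb_inv, r.xc_inv, r.xd_inv, r.y_inv]; group
      show r.IsW (r.wd t u v w * r.y)⁻¹
      rw [e]; exact h

theorem mem_words {g : H} : g ∈ r.words ↔ r.IsW g := Iff.rfl

end

/-- the product of two systems of generators -/
def prod {H' : Type*} [Group H'] (r : SpRel H K θ) (r' : SpRel H' K θ) : SpRel (H × H') K θ where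
  xa t := (r.xa t, r'.xa t)
  xb t := (r.xb t, r'.xb t)
  xc t := (r.xc t, r'.xc t)
  xd t := (r.xd t, r'.xd t)
  y := (r.y, r'.y)
  xa_add s t := Prod.ext (r.xa_add s t) (r'.xa_add s t)
  xb_add s t := Prod.ext (r.xb_add s t) (r'.xb_add s t)
  xc_add s t := Prod.ext (r.xc_add s t) (r'.xc_add s t)
  xd_add s t := Prod.ext (r.xd_add s t) (r'.xd_add s t)
  ab s t := Prod.ext (r.ab s t) (r'.ab s t)
  ac s t := Prod.ext (r.ac s t) (r'.ac s t)
  ad s t := Prod.ext (r.ad s t) (r'.ad s t)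
  bc s t := Prod.ext (r.bc s t) (r'.bc s t)
  bd s t := Prod.ext (r.bd s t) (r'.bd s t)
  cd s t := Prod.ext (r.cd s t) (r'.cd s t)
  y_sq := Prod.ext r.y_sq r'.y_sq
  ya t := Prod.ext (r.ya t) (r'.ya t)
  yc t := Prod.ext (r.yc t) (r'.yc t)

theorem prod_wd {H' : Type*} [Group H'] (r : SpRel H K θ) (r' : SpRel H' K θ) (t u v w : K) :
    (r.prod r').wd t u v w = (r.wd t u v w, r'.wd t u v w) := rfl

end SpRel

/-- **The homomorphism** from `S` to any group with generators satisfying the relations. -/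
theorem exists_hom {Ω : Type*} [Group Ω] {S T V : Subgroup Ω} {K : Type*} [Field K] [CharP K 2] {θ : K ≃+* K}
    (co : SpCo S T V K θ) {H : Type*} [Group H] (r : SpRel H K θ) :
    ∃ ι : S →* H, (∀ (t u v w : K) (h : co.wd t u v w ∈ S), ι ⟨co.wd t u v w, h⟩ = r.wd t u v w) ∧
      (∀ (t u v w : K) (h : co.wd t u v w * co.y ∈ S), ι ⟨co.wd t u v w * co.y, h⟩ = r.wd t u v w * r.y) := by
  set p := co.toSpRel.prod r with hp
  let f : p.words →* Ω := (MonoidHom.fst Ω H).comp p.words.subtype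
  have hf : Function.Injective f := by
    rw [injective_iff_map_eq_one]
    rintro ⟨g, t, u, v, w, h | h⟩ h1
    · have h2 : co.wd t u v w = 1 := by
        have : f ⟨g, ⟨t, u, v, w, Or.inl h⟩⟩ = co.wd t u v w := by
          show g.1 = _
          rw [h]; rfl
        rw [← this]; exact h1
      obtain ⟨rfl, rfl, rfl, rfl⟩ := co.inj t u v w h2
      apply Subtype.ext
      show g = 1
      rw [h]
      unfold SpRel.wd
      rw [p.xa_zero, p.xb_zero, p.xc_zero, p.xd_zero]; simp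
    · exfalso
      have h2 : co.wd t u v w * co.y = 1 := by
        have : f ⟨g, ⟨t, u, v, w, Or.inr h⟩⟩ = co.wd t u v w * co.y := by
          show g.1 = _
          rw [h]; rfl
        rw [← this]; exact h1
      apply co.y_not
      rw [co.hT]
      refine ⟨t, u, v, w, ?_⟩
      have h3 := eq_inv_of_mul_eq_one_left h2
      rw [co.y_inv] at h3
      exact h3.symm
  have hfr : f.range = S := by
    ext g
    rw [co.hS]
    constructor
    · rintro ⟨⟨g, t, u, v, w, h | h⟩, rfl⟩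
      · exact ⟨t, u, v, w, Or.inl (by show g.1 = _; rw [h]; rfl)⟩
      · exact ⟨t, u, v, w, Or.inr (by show g.1 = _; rw [h]; rfl)⟩
    · rintro ⟨t, u, v, w, h | h⟩
      · exact ⟨⟨_, ⟨t, u, v, w, Or.inl rfl⟩⟩, h.symm⟩
      · exact ⟨⟨_, ⟨t, u, v, w, Or.inr rfl⟩⟩, h.symm⟩
  let e : p.words ≃* S := (MonoidHom.ofInjective hf).trans (MulEquiv.subgroupCongr hfr)
  have he : ∀ g : p.words, ((e g : S) : Ω) = (g : Ω × H).1 := fun g => rfl
  have key : ∀ (s : S) (g : Ω × H) (hg : g ∈ p.words), g.1 = s → e.symm s = ⟨g, hg⟩ := by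
    intro s g hg h
    rw [MulEquiv.symm_apply_eq]
    apply Subtype.ext
    rw [he]; exact h.symm
  refine ⟨(MonoidHom.snd Ω H).comp (p.words.subtype.comp e.symm.toMonoidHom), ?_, ?_⟩
  · intro t u v w h
    have h1 := key ⟨co.wd t u v w, h⟩ (p.wd t u v w) ⟨t, u, v, w, Or.inl rfl⟩ rfl
    show ((e.symm ⟨co.wd t u v w, h⟩ : p.words) : Ω × H).2 = _
    rw [h1]; rfl
  · intro t u v w h
    have h1 := key ⟨co.wd t u v w * co.y, h⟩ (p.wd t u v w * p.y) ⟨t, u, v, w, Or.inr rfl⟩ rfl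
    show ((e.symm ⟨co.wd t u v w * co.y, h⟩ : p.words) : Ω × H).2 = _
    rw [h1]; rfl

end Cfsg.Agent.H124.SP
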